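import Cfsg.Agent.H9.Ch.Tor
import Cfsg.Prelude.Def_ChevE8

/-!
The root system of type E8.
-/

set_option autoImplicit false
set_option linter.unusedSectionVars false
set_option linter.unusedSimpArgs false
set_option maxRecDepth 100000

namespace Cfsg.Agent.H9.Ch

open Matrix Cfsg.Agent.H5.Ch
open Cfsg.Agent.H5.Ch.SLD (Φ exists_perm)

/-- The list of roots. -/
def rl : List (List ℤ) := Cfsg.Lie.chevE8Coroot.toList.map Array.toList

/-- Vectors from lists. -/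
def v8 (l : List ℤ) (i : Fin 8) : ℤ := l.getD i 0

/-- Linear forms from lists. -/
def lin (c : List ℤ) (v : Fin 8 → ℤ) : ℤ :=
  c.getD 0 0 * v 0 + c.getD 1 0 * v 1 + c.getD 2 0 * v 2 + c.getD 3 0 * v 3 + c.getD 4 0 * v 4 +
    c.getD 5 0 * v 5 + c.getD 6 0 * v 6 + c.getD 7 0 * v 7

/-- The bilinear form. -/
def Bf (u v : Fin 8 → ℤ) : ℤ :=
  u 0 * (2 * v 0 - v 2) + u 1 * (2 * v 1 - v 3) + u 2 * (2 * v 2 - v 0 - v 3) +
    u 3 * (2 * v 3 - v 1 - v 2 - v 4) + u 4 * (2 * v 4 - v 3 - v 5) + u 5 * (2 * v 5 - v 4 - v 6) +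
    u 6 * (2 * v 6 - v 5 - v 7) + u 7 * (2 * v 7 - v 6)

/-- The Cartan matrix. -/
def C8 : Matrix (Fin 8) (Fin 8) ℤ := !![2,0,-1,0,0,0,0,0; 0,2,0,-1,0,0,0,0; -1,0,2,-1,0,0,0,0;
  0,-1,-1,2,-1,0,0,0; 0,0,0,-1,2,-1,0,0; 0,0,0,0,-1,2,-1,0; 0,0,0,0,0,-1,2,-1; 0,0,0,0,0,0,-1,2]

theorem C8_eq (u v : Fin 8 → ℤ) : u ⬝ᵥ C8 *ᵥ v = Bf u v := by
  simp [C8, Bf, dotProduct, mulVec, Fin.sum_univ_succ]
  ring

/-- The root lattice. -/
def L8 : Lat 8 where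
  C := C8
  symm i j := by fin_cases i <;> fin_cases j <;> rfl
  diag := by decide
  off i j := by fin_cases i <;> fin_cases j <;> decide
  pos v hv := by
    rw [C8_eq]
    by_contra! h
    have e : 60 * Bf v v = 30 * (2 * v 0 - v 2) ^ 2 + 10 * (3 * v 2 - 2 * v 3) ^ 2 +
      30 * (2 * v 1 - v 3) ^ 2 + 30 * (2 * v 7 - v 6) ^ 2 + 10 * (3 * v 6 - 2 * v 5) ^ 2 +
      5 * (4 * v 5 - 3 * v 4) ^ 2 + 3 * (5 * v 4 - 4 * v 3) ^ 2 + 2 * v 3 ^ 2 := by unfold Bf; ring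
    have h0 := sq_nonneg (2 * v 0 - v 2)
    have h1 := sq_nonneg (3 * v 2 - 2 * v 3)
    have h2 := sq_nonneg (2 * v 1 - v 3)
    have h3 := sq_nonneg (2 * v 7 - v 6)
    have h4 := sq_nonneg (3 * v 6 - 2 * v 5)
    have h5 := sq_nonneg (4 * v 5 - 3 * v 4)
    have h6 := sq_nonneg (5 * v 4 - 4 * v 3)
    have h7 := sq_nonneg (v 3)
    have k0 := pow_eq_zero_iff two_ne_zero |>.1 (show (2 * v 0 - v 2) ^ 2 = 0 by omega)
    have k1 := pow_eq_zero_iff two_ne_zero |>.1 (show (3 * v 2 - 2 * v 3) ^ 2 = 0 by omega)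
    have k2 := pow_eq_zero_iff two_ne_zero |>.1 (show (2 * v 1 - v 3) ^ 2 = 0 by omega)
    have k3 := pow_eq_zero_iff two_ne_zero |>.1 (show (2 * v 7 - v 6) ^ 2 = 0 by omega)
    have k4 := pow_eq_zero_iff two_ne_zero |>.1 (show (3 * v 6 - 2 * v 5) ^ 2 = 0 by omega)
    have k5 := pow_eq_zero_iff two_ne_zero |>.1 (show (4 * v 5 - 3 * v 4) ^ 2 = 0 by omega)
    have k6 := pow_eq_zero_iff two_ne_zero |>.1 (show (5 * v 4 - 4 * v 3) ^ 2 = 0 by omega)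
    have k7 := pow_eq_zero_iff two_ne_zero |>.1 (show (v 3) ^ 2 = 0 by omega)
    refine hv (funext fun i => ?_)
    fin_cases i <;> simp <;> omega

theorem L8_B (u v : Fin 8 → ℤ) : L8.B u v = Bf u v := (L8.B_apply u v).trans (C8_eq u v)

theorem rl_length : rl.length = 240 := by decide +kernel

/-- The enumeration of the roots. -/
def rt8 (r : Fin 240) : Fin 8 → ℤ := v8 (rl[r.1]'(by rw [rl_length]; exact r.2))

theorem all_rt {P : (Fin 8 → ℤ) → Prop} (h : ∀ l ∈ rl, P (v8 l)) (r : Fin 240) : P (rt8 r) :=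
  h _ (List.getElem_mem _)

theorem ex_rt {v : Fin 8 → ℤ} (h : ∃ l ∈ rl, v8 l = v) : ∃ r, rt8 r = v := by
  obtain ⟨l, hl, rfl⟩ := h
  obtain ⟨i, hi, rfl⟩ := List.getElem_of_mem hl
  exact ⟨⟨i, by rwa [rl_length] at hi⟩, rfl⟩

theorem sum_rt {M : Type*} [AddCommMonoid M] (f : (Fin 8 → ℤ) → M) :
    ∑ r, f (rt8 r) = (rl.map fun l => f (v8 l)).sum :=
  Fin.sum_univ_fun_getElem rl fun l => f (v8 l)

theorem prod_rt {M : Type*} [CommMonoid M] (f : (Fin 8 → ℤ) → M) :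
    ∏ r, f (rt8 r) = (rl.map fun l => f (v8 l)).prod :=
  Fin.prod_univ_fun_getElem rl fun l => f (v8 l)

/-- A generic linear form. -/
def c13 : List ℤ := [1, 13, 169, 2197, 28561, 371293, 4826809, 62748517]

theorem c13_inj {r s : Fin 240} (e : lin c13 (rt8 r) = lin c13 (rt8 s)) : r = s := by
  have h : (rl.map fun l => lin c13 (v8 l)).Nodup := by decide +kernel
  exact Fin.ext ((List.Nodup.getElem_inj_iff h (i := r) (j := s) (hi := by simp [rl_length])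
    (hj := by simp [rl_length])).1 (by simp only [List.getElem_map]; exact e))

theorem rt8_inj : Function.Injective rt8 := fun _ _ e => c13_inj (congrArg _ e)

theorem rt8_norm : ∀ l ∈ rl, Bf (v8 l) (v8 l) = 2 := by decide +kernel

theorem rt8_al : ∀ i, ∃ l ∈ rl, v8 l = al i := by decide +kernel

theorem rt8_add : ∀ l ∈ rl, ∀ i, Bf (v8 l) (al i) = -1 → ∃ l' ∈ rl, v8 l' = v8 l + al i := by
  decide +kernel

theorem rt8_neg : ∀ l ∈ rl, ∃ l' ∈ rl, v8 l' = -v8 l := by decide +kernel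

theorem rt8_surj : ∀ v, L8.B v v = 2 → ∃ r, rt8 r = v :=
  L8.surj_of rt8 (fun i => ex_rt (rt8_al i))
    (fun r i h => ex_rt (all_rt (P := fun v => ∀ i, Bf v (al i) = -1 → ∃ l ∈ rl, v8 l = v + al i)
      rt8_add r i (by rwa [L8_B] at h)))
    (fun r => ex_rt (all_rt (P := fun v => ∃ l ∈ rl, v8 l = -v) rt8_neg r))

/-- The root system. -/
def E8 : SLD 8 240 where
  toLat := L8
  rt := rt8
  inj := rt8_inj
  norm r := (L8_B _ _).trans (all_rt (P := fun v => Bf v v = 2) rt8_norm r)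
  surj := rt8_surj

theorem E8_B (u v : Fin 8 → ℤ) : E8.B u v = Bf u v := L8_B u v

theorem E8_rt (r : Fin 240) : E8.rt r = rt8 r := rfl

theorem all_root {P : (Fin 8 → ℤ) → Prop} (h : ∀ l ∈ rl, P (v8 l)) (r : E8.Φ) : P r.1 := by
  obtain ⟨s, hs⟩ := E8.surj r.1 r.2
  rw [← hs]; exact all_rt h s

set_option synthInstance.maxSize 2000 in
set_option synthInstance.maxHeartbeats 200000 in
theorem diag_rig : ∀ a3 a2 : Fin 8, C8 a2 a3 = -1 → ∀ a1, C8 a1 a3 = -1 → C8 a1 a2 = 0 →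
    ∀ a4, C8 a4 a3 = -1 → C8 a4 a2 = 0 → C8 a4 a1 = 0 → ∀ a0, C8 a0 a2 = -1 → C8 a0 a3 = 0 →
    ∀ a5, C8 a5 a4 = -1 → C8 a5 a3 = 0 → ∀ a6, C8 a6 a5 = -1 → C8 a6 a4 = 0 →
    ∀ a7, C8 a7 a6 = -1 → C8 a7 a5 = 0 →
    a0 = 0 ∧ a1 = 1 ∧ a2 = 2 ∧ a3 = 3 ∧ a4 = 4 ∧ a5 = 5 ∧ a6 = 6 ∧ a7 = 7 := by
  decide +kernel

/-- The Weyl vector. -/
def rho8 : Fin 8 → ℤ := v8 [46, 68, 91, 135, 110, 84, 57, 29]

theorem B_rho8 (v : Fin 8 → ℤ) : E8.B v rho8 = ht v := by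
  have : ∀ i, E8.B (al i) rho8 = 1 := by simp only [E8_B]; decide +kernel
  simp only [Lat.B_eq_sum _ v, this, ht_apply, mul_one]

/-- A generic vector. -/
def v08 : Fin 8 → ℤ :=
  v8 [147283738, 220925528, 294567475, 441851043, 368206886, 294534168, 220490157, 141619337]

theorem B_v08 (v : Fin 8 → ℤ) : E8.B v v08 = lin c13 v := by
  rw [E8_B]; simp [Bf, lin, c13, v8, v08]; ring

theorem c13_ne : ∀ l ∈ rl, lin c13 (v8 l) ≠ 0 := by decide +kernel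

theorem sum_pos : ∀ i, (rl.map fun l => if 0 < ∑ i, v8 l i then v8 l i else 0).sum = 2 * rho8 i := by
  decide +kernel

theorem ht_one : ∀ l ∈ rl, ∑ i, v8 l i = 1 → ∃ j, v8 l = al j := by decide +kernel

theorem rig8 (w : (Fin 8 → ℤ) ≃ₗ[ℤ] (Fin 8 → ℤ)) (hw : ∀ u v, E8.B (w u) (w v) = E8.B u v)
    (hp : ∀ r : E8.Φ, 0 < ht r.1 → 0 < ht (w r.1)) : w = 1 := by
  classical
  obtain ⟨π, hπ⟩ := exists_perm hw
  have h1 : ∑ r, (if 0 < ht (rt8 r) then rt8 r else 0) = (2 : ℤ) • rho8 := funext fun i => by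
    rw [Finset.sum_apply]
    simp only [ite_apply, ht_apply]
    exact (sum_rt fun v => if 0 < ∑ i, v i then v i else 0).trans (sum_pos i)
  have h2 : ∀ r, 0 < ht (rt8 r) ↔ 0 < ht (rt8 (π r)) := fun r => by
    rw [← E8_rt, ← E8_rt, hπ]
    refine ⟨hp ⟨_, E8.norm r⟩, fun h => ?_⟩
    by_contra h3
    have := Lat.ht_ne_zero (E8.norm r)
    have := hp ⟨-E8.rt r, by simp⟩ (by simp only [map_neg]; omega)
    simp only [map_neg] at this
    omega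
  have h3 : w rho8 = rho8 := by
    refine smul_right_injective _ (two_ne_zero (α := ℤ)) ?_
    simp only
    rw [← map_smul, ← h1, map_sum, ← Equiv.sum_comp π fun r => if 0 < ht (rt8 r) then rt8 r else 0]
    refine Finset.sum_congr rfl fun r _ => ?_
    simp only [← h2]
    split_ifs
    · exact (hπ r).symm
    · simp
  have h4 : ∀ i, ∃ j, w (al i) = al j := fun i =>
    all_root (P := fun v => ∑ i, v i = 1 → ∃ j, v = al j) ht_one
      ⟨w (al i), by rw [hw, Lat.B_al_self]⟩ (by rw [← ht_apply, ← B_rho8, ← h3, hw, B_rho8, ht_al])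
  choose f hf using h4
  have h5 : ∀ i j, C8 (f i) (f j) = C8 i j := fun i j => by
    have := hw (al i) (al j)
    rwa [hf, hf, Lat.B_al_al, Lat.B_al_al] at this
  obtain ⟨k0, k1, k2, k3, k4, k5, k6, k7⟩ := diag_rig (f 3) (f 2) (h5 _ _) (f 1) (h5 _ _) (h5 _ _)
    (f 4) (h5 _ _) (h5 _ _) (h5 _ _) (f 0) (h5 _ _) (h5 _ _) (f 5) (h5 _ _) (h5 _ _) (f 6) (h5 _ _)
    (h5 _ _) (f 7) (h5 _ _) (h5 _ _)
  refine LinearEquiv.toLinearMap_injective ((Pi.basisFun ℤ _).ext fun i => ?_)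
  have : f i = i := by fin_cases i <;> assumption
  simpa [al, this] using hf i

/-- The extra data. -/
def gen8 : Gen E8 where
  v0 := v08
  ne r := by rw [B_v08]; exact all_root (P := fun v => lin c13 v ≠ 0) c13_ne r
  inj r r' e := by
    obtain ⟨s, hs⟩ := E8.surj r.1 r.2
    obtain ⟨s', hs'⟩ := E8.surj r'.1 r'.2
    rw [B_v08, B_v08, ← hs, ← hs'] at e
    exact Subtype.ext (by rw [← hs, ← hs', c13_inj e])
  rho := rho8
  hrho i := by rw [B_rho8, ht_al]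
  rig := rig8

end Cfsg.Agent.H9.Ch
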