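import Cfsg.Agent.H9.Ch.E8

/-!
The Chevalley group of type E8 in any characteristic.
-/

set_option autoImplicit false
set_option linter.unusedSectionVars false
set_option linter.unusedSimpArgs false
set_option maxRecDepth 100000

namespace Cfsg.Agent.H9.Ch

open Matrix Cfsg.Lie Cfsg.Agent.H5.Ch
open Cfsg.Agent.H5.Ch.SLD (Φ exists_perm e_inl e_inr hv_inl hv_inr hv)
open scoped MatrixGroups

/-- The signs relating the two bases. -/
def sg (r : ℕ) : ℤ := if Nat.testBit 593604105717322811518164549030049902964230609154835073798077817221529493 r then -1 else 1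

theorem tab_neg : ∀ r : Fin 240, chevE8NegIdx.getD r 0 = r.rev ∧ rt8 r.rev = -rt8 r ∧
    sg r * sg r.rev = -1 := by
  decide +kernel

/-- The form giving the signs. -/
def Ef (u v : Fin 8 → ℤ) : ℤ :=
  u 0 * (v 0 - v 2) + u 1 * (v 1 - v 3) + u 2 * (v 2 - v 3) + u 3 * (v 3 - v 4) + u 4 * (v 4 - v 5) +
    u 5 * (v 5 - v 6) + u 6 * (v 6 - v 7) + u 7 * v 7

theorem Eb_eq (u v : Fin 8 → ℤ) : Eb E8.toLat u v = Ef u v := by
  rw [Eb_sum]
  simp [Eh, E8, L8, C8, Ef, Fin.sum_univ_succ]
  ring

/-- The Cartan integers of a vector. -/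
def carl : List ℤ → List ℤ
  | [v0, v1, v2, v3, v4, v5, v6, v7] => [2 * v0 - v2, 2 * v1 - v3, 2 * v2 - v0 - v3,
      2 * v3 - v1 - v2 - v4, 2 * v4 - v3 - v5, 2 * v5 - v4 - v6, 2 * v6 - v5 - v7, 2 * v7 - v6]
  | _ => []

/-- The coefficients of the sign form. -/
def efl : List ℤ → List ℤ
  | [u0, u1, u2, u3, u4, u5, u6, u7] => [u0, u1, u2 - u0, u3 - u1 - u2, u4 - u3, u5 - u4, u6 - u5,
      u7 - u6]
  | _ => []

/-- The dot product. -/
def dotl : List ℤ → List ℤ → ℤ
  | [u0, u1, u2, u3, u4, u5, u6, u7], [v0, v1, v2, v3, v4, v5, v6, v7] =>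
    Int.add (Int.add (Int.add (Int.mul u0 v0) (Int.mul u1 v1)) (Int.add (Int.mul u2 v2) (Int.mul u3 v3)))
      (Int.add (Int.add (Int.mul u4 v4) (Int.mul u5 v5)) (Int.add (Int.mul u6 v6) (Int.mul u7 v7)))
  | _, _ => 0

/-- Test of a sum. -/
def suml : List ℤ → List ℤ → List ℤ → Bool
  | [u0, u1, u2, u3, u4, u5, u6, u7], [v0, v1, v2, v3, v4, v5, v6, v7],
    [w0, w1, w2, w3, w4, w5, w6, w7] => u0 == v0 + w0 && u1 == v1 + w1 && u2 == v2 + w2 &&
      u3 == v3 + w3 && u4 == v4 + w4 && u5 == v5 + w5 && u6 == v6 + w6 && u7 == v7 + w7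
  | _, _, _ => false

theorem len8 {a : List ℤ} (h : a.length = 8) : ∃ u0 u1 u2 u3 u4 u5 u6 u7,
    a = [u0, u1, u2, u3, u4, u5, u6, u7] := by
  match a, h with
  | [u0, u1, u2, u3, u4, u5, u6, u7], _ => exact ⟨_, _, _, _, _, _, _, _, rfl⟩

theorem dotl_carl {a b : List ℤ} (ha : a.length = 8) (hb : b.length = 8) :
    dotl b (carl a) = Bf (v8 b) (v8 a) := by
  obtain ⟨u0, u1, u2, u3, u4, u5, u6, u7, rfl⟩ := len8 ha
  obtain ⟨v0, v1, v2, v3, v4, v5, v6, v7, rfl⟩ := len8 hb
  simp [dotl, carl, Bf, v8]
  ring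

theorem dotl_efl {a b : List ℤ} (ha : a.length = 8) (hb : b.length = 8) :
    dotl b (efl a) = Ef (v8 a) (v8 b) := by
  obtain ⟨u0, u1, u2, u3, u4, u5, u6, u7, rfl⟩ := len8 ha
  obtain ⟨v0, v1, v2, v3, v4, v5, v6, v7, rfl⟩ := len8 hb
  simp [dotl, efl, Ef, v8]
  ring

theorem suml_eq {a b c : List ℤ} (h : suml c b a = true) : v8 c = v8 b + v8 a := by
  unfold suml at h
  split at h
  · simp only [Bool.and_eq_true, beq_iff_eq] at h
    funext i
    fin_cases i <;> simp [v8, h]
  · simp at h

theorem tab_car' : chevE8CartanSR.toList.map Array.toList =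
    (List.range 8).map fun i => rl.map fun l => (carl l).getD i 0 := by decide +kernel

theorem rl_len8 : ∀ a ∈ rl, a.length = 8 := by decide +kernel

/-- Merge check of the chain table. -/
def mrg (P : List ℤ → ℕ → ℕ → ℤ → Bool) (Q : List ℤ → Bool) :
    List (List ℤ) → ℕ → List (ℕ × Array (ℕ × ℤ)) → Bool
  | [], _, ch => ch.isEmpty
  | b :: L, s, [] => Q b && mrg P Q L (s + 1) []
  | b :: L, s, (s', ⟨[(u, c)]⟩) :: ch =>
    if s' = s then P b s u c && mrg P Q L (s + 1) ch else Q b && mrg P Q L (s + 1) ((s', ⟨[(u, c)]⟩) :: ch)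
  | _ :: _, _, _ => false

theorem mrg_spec {P : List ℤ → ℕ → ℕ → ℤ → Bool} {Q : List ℤ → Bool} (L : List (List ℤ)) (s : ℕ)
    (ch : List (ℕ × Array (ℕ × ℤ))) (h : mrg P Q L s ch = true) :
    (∀ e ∈ ch, s ≤ e.1) ∧ ∀ i (hi : i < L.length),
      (ch.filter (fun e => e.1 = s + i) = [] ∧ Q L[i] = true) ∨
      ∃ u c, ch.filter (fun e => e.1 = s + i) = [(s + i, ⟨[(u, c)]⟩)] ∧ P L[i] (s + i) u c = true := by
  induction L generalizing s ch with
  | nil =>
    simp only [mrg, List.isEmpty_iff] at h
    simp [h]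
  | cons b L ih =>
    unfold mrg at h
    split at h
    · simp at *
    · rename_i e
      obtain ⟨rfl, rfl⟩ := List.cons.inj e
      simp only [Bool.and_eq_true] at h
      refine ⟨by simp, fun i hi => Or.inl ⟨rfl, ?_⟩⟩
      rcases i with _ | i
      · exact h.1
      · simpa using (ih _ _ h.2).2 i (by simpa using hi)
    · rename_i s' u c ch e
      obtain ⟨rfl, rfl⟩ := List.cons.inj e
      split_ifs at h with h1
      · subst h1
        simp only [Bool.and_eq_true] at h
        obtain ⟨h2, h3⟩ := ih _ _ h.2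
        refine ⟨by simpa using fun a b hab => Nat.le_of_succ_le (h2 _ hab), fun i hi => ?_⟩
        rcases i with _ | i
        · refine Or.inr ⟨u, c, ?_, h.1⟩
          simpa using fun a b hab => by have := h2 _ hab; omega
        · have := h3 i (by simpa using hi)
          rw [List.filter_cons_of_neg (by simp)]
          simpa only [List.getElem_cons_succ, add_assoc, add_comm 1 i] using this
      · simp only [Bool.and_eq_true] at h
        obtain ⟨h2, h3⟩ := ih _ _ h.2
        refine ⟨fun e he => Nat.le_of_succ_le (h2 e he), fun i hi => ?_⟩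
        rcases i with _ | i
        · refine Or.inl ⟨?_, h.1⟩
          rw [List.filter_eq_nil_iff]
          intro e he
          have := h2 e he
          simp; omega
        · simpa only [List.getElem_cons_succ, add_assoc, add_comm 1 i] using h3 i (by simpa using hi)
    · simp at h

/-- Check of one entry. -/
def okP (a ea : List ℤ) (r : ℕ) (b : List ℤ) (s u : ℕ) (c : ℤ) : Bool :=
  c == sg r * sg s * sg u * (if dotl b ea % 2 = 0 then 1 else -1) && u < 240 &&
    suml (rl.getD u []) b a

/-- Check of one row. -/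
def okR (p : (List ℤ × ℕ) × Array (ℕ × Array (ℕ × ℤ))) : Bool :=
  mrg (okP p.1.1 (efl p.1.1) p.1.2) (fun b => dotl b (carl p.1.1) != -1) rl 0 p.2.toList

/-- The rows. -/
def rows : List ((List ℤ × ℕ) × Array (ℕ × Array (ℕ × ℤ))) := rl.zipIdx.zip chevE8Chain.toList

theorem tab_chain0 : ((rows.drop 0).take 15).all okR = true := by decide +kernel

theorem tab_chain1 : ((rows.drop 15).take 15).all okR = true := by decide +kernel

theorem tab_chain2 : ((rows.drop 30).take 15).all okR = true := by decide +kernel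

theorem tab_chain3 : ((rows.drop 45).take 15).all okR = true := by decide +kernel

theorem tab_chain4 : ((rows.drop 60).take 15).all okR = true := by decide +kernel

theorem tab_chain5 : ((rows.drop 75).take 15).all okR = true := by decide +kernel

theorem tab_chain6 : ((rows.drop 90).take 15).all okR = true := by decide +kernel

theorem tab_chain7 : ((rows.drop 105).take 15).all okR = true := by decide +kernel

theorem tab_chain8 : ((rows.drop 120).take 15).all okR = true := by decide +kernel

theorem tab_chain9 : ((rows.drop 135).take 15).all okR = true := by decide +kernel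

theorem tab_chain10 : ((rows.drop 150).take 15).all okR = true := by decide +kernel

theorem tab_chain11 : ((rows.drop 165).take 15).all okR = true := by decide +kernel

theorem tab_chain12 : ((rows.drop 180).take 15).all okR = true := by decide +kernel

theorem tab_chain13 : ((rows.drop 195).take 15).all okR = true := by decide +kernel

theorem tab_chain14 : ((rows.drop 210).take 15).all okR = true := by decide +kernel

theorem tab_chain15 : ((rows.drop 225).take 15).all okR = true := by decide +kernel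

theorem all_of_chunks {α : Type*} (P : α → Bool) (m : ℕ) (k : ℕ) (L : List α) (hL : L.length ≤ m * k)
    (h : ∀ j < k, ((L.drop (m * j)).take m).all P = true) : ∀ p ∈ L, P p = true := by
  intro p hp
  obtain ⟨i, hi, rfl⟩ := List.getElem_of_mem hp
  have hm : 0 < m := Nat.pos_of_ne_zero (by rintro rfl; simp at hL; simp [hL] at hi)
  have h1 := h (i / m) (by rw [Nat.div_lt_iff_lt_mul hm]; nlinarith)
  rw [List.all_eq_true] at h1
  refine h1 _ (List.mem_iff_getElem.2 ⟨i % m, ?_, ?_⟩)
  · have := Nat.mod_lt i hm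
    have := Nat.div_add_mod i m
    simp only [List.length_take, List.length_drop]
    omega
  · simp [Nat.div_add_mod]

theorem tab_chain' : ∀ p ∈ rows, okR p = true := by
  refine all_of_chunks okR 15 16 rows (by decide +kernel) fun j hj => ?_
  interval_cases j
  exacts [tab_chain0, tab_chain1, tab_chain2, tab_chain3, tab_chain4, tab_chain5, tab_chain6, tab_chain7, tab_chain8, tab_chain9, tab_chain10, tab_chain11, tab_chain12, tab_chain13, tab_chain14, tab_chain15]

end Cfsg.Agent.H9.Ch
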