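import Cfsg.Agent.H9.Ch.E8t

/-!
The Chevalley group of type E8 as a subgroup of the adjoint group.
-/

set_option autoImplicit false
set_option linter.unusedSectionVars false
set_option linter.unusedSimpArgs false
set_option maxRecDepth 100000

namespace Cfsg.Agent.H9.Ch

open Matrix Cfsg.Lie Cfsg.Agent.H5.Ch
open Cfsg.Agent.H5.Ch.SLD (Φ exists_perm e_inl e_inr hv_inl hv_inr hv)
open scoped MatrixGroups

theorem rl_get (r : Fin 240) : rl[r.1]'(by rw [rl_length]; exact r.2) =
    (chevE8Coroot.getD r #[]).toList := by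
  have h : r.1 < chevE8Coroot.size := by
    have := rl_length
    simp only [rl, List.length_map, Array.length_toList] at this
    rw [this]; exact r.2
  simp [rl, h]

theorem tab_cor (r : Fin 240) (i : Fin 8) : (chevE8Coroot.getD r #[]).getD i 0 = rt8 r i := by
  rw [rt8, rl_get, v8]
  simp

theorem rt8_len (r : Fin 240) : (rl[r.1]'(by rw [rl_length]; exact r.2)).length = 8 :=
  rl_len8 _ (List.getElem_mem _)

theorem tab_car (r : Fin 240) (i : Fin 8) :
    (chevE8CartanSR.getD i #[]).getD r 0 = Bf (al i) (rt8 r) := by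
  have h1 : (chevE8CartanSR.getD i #[]).getD r 0 =
      ((chevE8CartanSR.toList.map Array.toList).getD i []).getD r 0 := by
    by_cases h : i.1 < chevE8CartanSR.size <;> simp [h]
  have h2 : r.1 < rl.length := by rw [rl_length]; exact r.2
  rw [h1, tab_car', rt8]
  obtain ⟨u0, u1, u2, u3, u4, u5, u6, u7, e⟩ := len8 (rt8_len r)
  simp only [List.getD_eq_getElem?_getD, List.getElem?_map, List.getElem?_range i.2, Option.map_some,
    Option.getD_some, List.getElem?_eq_getElem h2, e]
  fin_cases i <;> simp [carl, Bf, al, v8] <;> ring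

theorem sg_sq (r : ℕ) : sg r * sg r = 1 := by unfold sg; split_ifs <;> rfl

theorem tab_chain (r s u : Fin 240) : (rt8 u ≠ rt8 s + rt8 r ∧ chevE8.chainCoeff r s u = []) ∨
    (rt8 u = rt8 s + rt8 r ∧ chevE8.chainCoeff r s u =
      [(1, sg r * sg s * sg u * ((Eb E8.toLat (rt8 r) (rt8 s)).negOnePow : ℤˣ))]) := by
  have hr : r.1 < rl.length := by rw [rl_length]; exact r.2
  have hs : s.1 < rl.length := by rw [rl_length]; exact s.2
  have hc : r.1 < chevE8Chain.size := r.2
  have h := tab_chain' ((rl[r.1]'hr, r), chevE8Chain[r.1]'hc) (List.mem_iff_getElem.2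
    ⟨r, by simp [rows, hr, hc], by simp [rows]⟩)
  have h1 := (mrg_spec _ _ _ h).2 s hs
  have h0 : chevE8.chain.getD r #[] = chevE8Chain[r.1] := by simp [chevE8, hc]
  unfold ChevalleyDatum.chainCoeff
  rw [h0]
  simp only [zero_add] at h1
  rcases h1 with ⟨e, h1⟩ | ⟨u', c, e, h1⟩
  · refine Or.inl ⟨fun e2 => ?_, by rw [e]; rfl⟩
    have := (Lat.add_root_iff (E8.norm s) (E8.norm r)).1 (by
      have := E8.norm u
      rwa [E8_rt, e2] at this)
    rw [E8_B] at this
    rw [dotl_carl (rt8_len r) (rt8_len s)] at h1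
    exact bne_iff_ne.1 h1 this
  · simp only [okP, Bool.and_eq_true, beq_iff_eq, decide_eq_true_eq] at h1
    have h2 : rt8 ⟨u', h1.1.2⟩ = rt8 s + rt8 r := by
      have := suml_eq h1.2
      rwa [List.getD_eq_getElem _ [] (by rw [rl_length]; exact h1.1.2)] at this
    rw [e, ← h2, ne_eq, rt8_inj.eq_iff]
    by_cases e2 : u = ⟨u', h1.1.2⟩
    · refine Or.inr ⟨e2, ?_⟩
      have h3 := h1.1.1
      rw [dotl_efl (rt8_len r) (rt8_len s)] at h3
      have h4 : (((Eb E8.toLat (rt8 r) (rt8 s)).negOnePow : ℤˣ) : ℤ) =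
          if Ef (rt8 r) (rt8 s) % 2 = 0 then 1 else -1 := by
        rw [Eb_eq]
        split_ifs with h5
        · rw [Int.negOnePow_even _ (Int.even_iff.2 h5)]; rfl
        · rw [Int.negOnePow_odd _ (Int.odd_iff.2 (by omega))]; rfl
      rw [h4]
      simp [e2, h3]
      rfl
    · exact Or.inl ⟨e2, by simpa using fun e3 => e2 (Fin.ext e3.symm)⟩

variable {F : Type*} [Field F]

variable (F) in
/-- The change of basis. -/
def dd {l n : ℕ} : Fin l ⊕ Fin n → F := Sum.elim (fun _ => 1) fun r => sg r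

theorem dd_sq {l n : ℕ} (i : Fin l ⊕ Fin n) : dd F i * dd F i = 1 := by
  rcases i with i | i
  · simp [dd]
  · simp only [dd, Sum.elim_inr, ← Int.cast_mul, sg_sq, Int.cast_one]

theorem xMat_eq' (D : ChevalleyDatum) (R : SLD D.rank D.nroots)
    (hcor : ∀ (r : Fin D.nroots) (i : Fin D.rank), (D.coroot.getD r #[]).getD i 0 = R.rt r i)
    (hcar : ∀ (r : Fin D.nroots) (i : Fin D.rank),
      (D.cartanSR.getD i #[]).getD r 0 = R.B (al i) (R.rt r))
    (hneg : ∀ r s : Fin D.nroots, s.1 = D.negIdx.getD r 0 ↔ R.rt s = -R.rt r)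
    (hsg : ∀ r s : Fin D.nroots, R.rt s = -R.rt r → sg r * sg s = -1)
    (hch : ∀ r s u : Fin D.nroots, (R.rt u ≠ R.rt s + R.rt r ∧ D.chainCoeff r s u = []) ∨
      (R.rt u = R.rt s + R.rt r ∧ D.chainCoeff r s u =
        [(1, sg r * sg s * sg u * ((Eb R.toLat (R.rt r) (R.rt s)).negOnePow : ℤˣ))]))
    (r : Fin D.nroots) (t : F) (i j : D.Idx) :
    dd F i * D.xMat F r t i j * dd F j = XM R (R.rt r) (sg r * t) i j := by
  have h0 := Lat.ne_zero_of_root (R.norm r)
  have h4 : R.rt r ≠ -R.rt r := fun e => h0 (self_eq_neg.1 e)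
  have hs1 : ∀ s, R.rt s = -R.rt r → (sg r : F) * sg s = -1 := fun s e => by
    exact_mod_cast congrArg (Int.cast (R := F)) (hsg r s e)
  have hq : ∀ s : ℕ, (sg s : F) * sg s = 1 := fun s => by
    exact_mod_cast congrArg (Int.cast (R := F)) (sg_sq s)
  rcases i with i | u <;> rcases j with j | s
  · by_cases e : i = j <;> simp [ChevalleyDatum.xMat, XM, e_inl, al, e, dd]
  · simp only [ChevalleyDatum.xMat, XM, of_apply, hneg, Sum.elim_inr, Pi.add_apply, Pi.smul_apply,
      e_inl, hcor, dd, Sum.elim_inl]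
    by_cases e : R.rt s = -R.rt r
    · have : s ≠ r := fun e' => h4 (by rwa [e'] at e)
      have h5 := hs1 s e
      have h6 := hq r
      simp [this, e, e_inl]
      linear_combination (R.rt r i : F) * t * sg r * h5 - (R.rt r i : F) * t * sg s * h6
    · simp [e]
  · simp only [ChevalleyDatum.xMat, XM, of_apply, Sum.elim_inl, Pi.sub_apply, Pi.smul_apply,
      e_inr, hv_inr, R.inj.eq_iff, hcar, dd, Sum.elim_inr]
    split_ifs with e
    · subst e; simp; ring
    · simp
  · simp only [ChevalleyDatum.xMat, XM, of_apply, hneg, Sum.elim_inr, Pi.add_apply, Pi.smul_apply,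
      e_inr, R.inj.eq_iff, dd]
    by_cases e : s = r
    · subst e
      have h3 : R.rt u ≠ R.rt s + R.rt s := fun e => by
        have := R.norm u
        rw [e] at this
        simp at this
      by_cases e : u = s <;> simp [h3, h4, e, hq, h0]
    by_cases e2 : R.rt s = -R.rt r
    · have h3 : R.rt u ≠ 0 := Lat.ne_zero_of_root (R.norm u)
      have h5 := hs1 s e2
      have h6 := hq r
      simp only [if_neg e, e2, if_true, neg_add_cancel, if_neg h3, Pi.add_apply, Pi.smul_apply,
        hv_inr, e_inr, R.inj.eq_iff]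
      by_cases e3 : u = s
      · simp [e3, e, hq]
      · split_ifs with e4
        · subst e4
          simp
          linear_combination -t ^ 2 * h5 - t ^ 2 * h6
        · simp
    · simp only [if_neg e, if_neg e2]
      rcases hch r s u with ⟨h3, h4⟩ | ⟨h3, h5⟩
      · rw [h4, if_neg h3]
        by_cases e : u = s <;> simp [e, hq]
      · have h6 : u ≠ s := by
          rintro rfl
          exact h0 (by simpa using h3)
        rw [h5, if_pos h3]
        have h7 := hq s
        have h8 := hq u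
        simp only [if_neg h6, ep, List.map_cons, List.map_nil, List.sum_cons, List.sum_nil,
          Int.cast_mul, smul_eq_mul, Pi.zero_apply]
        generalize (((((Eb R.toLat (R.rt r) (R.rt s)).negOnePow : ℤˣ)) : ℤ) : F) = c
        linear_combination (sg r * c * t * sg s * sg s) * h8 + (sg r * c * t) * h7

theorem xMat_eq (r : Fin 240) (t : F) (i j : Fin 8 ⊕ Fin 240) :
    dd F i * chevE8.xMat F r t i j * dd F j = XM E8 (E8.rt r) (sg r * t) i j :=
  xMat_eq' chevE8 E8 tab_cor (fun r i => (tab_car r i).trans (E8_B _ _).symm) (fun r s : Fin 240 => by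
    change s.1 = _ ↔ rt8 s = -rt8 r
    rw [← (tab_neg r).2.1, rt8_inj.eq_iff, Fin.ext_iff, ← (tab_neg r).1]
    rfl) (fun r s : Fin 240 => fun e => by
    have : s = r.rev := rt8_inj (e.trans (tab_neg r).2.1.symm)
    rw [this]
    exact (tab_neg r).2.2) tab_chain r t i j

variable (F) in
/-- The change of basis as an invertible matrix. -/
def dU : GL (Fin 8 ⊕ Fin 240) F :=
  ⟨diagonal (dd F), diagonal (dd F), by simp [dd_sq], by simp [dd_sq]⟩

theorem conj_mem_G {g : GL (Fin 8 ⊕ Fin 240) F} (hg : g ∈ chevE8.group F) :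
    dU F * g * (dU F)⁻¹ ∈ G E8 F := by
  refine (Subgroup.closure_le ((G E8 F).comap (MulAut.conj (dU F)).toMonoidHom)).2 ?_ hg
  rintro g ⟨r, t, h⟩
  have : dU F * g * (dU F)⁻¹ = x ⟨_, E8.norm r⟩ (sg r * t) := Units.ext (by
    ext i j
    change (diagonal (dd F) * g.1 * diagonal (dd F) : Matrix (Fin 8 ⊕ Fin 240) (Fin 8 ⊕ Fin 240) F) i j = _
    rw [mul_diagonal, diagonal_mul, h]
    exact xMat_eq r t i j)
  change dU F * g * (dU F)⁻¹ ∈ G E8 F
  rw [this]
  exact x_mem_G (R := E8) _ _

end Cfsg.Agent.H9.Ch
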