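import Cfsg.Agent.H9.Ch.Rel
import Cfsg.Agent.H5.Ch.Grp

/-!
The adjoint group in any characteristic: monomial subgroup and Bruhat decomposition.
-/

set_option autoImplicit false
set_option linter.unusedSectionVars false
set_option linter.unusedSimpArgs false

namespace Cfsg.Agent.H9.Ch

open Matrix Cfsg.Agent.H5.Ch
open Cfsg.Agent.H5.Ch.SLD (Φ ng sp ad sw hv ng_val sp_val ad_val sw_apply sw_mul_self ht_sw_pos e_inr
  e_inl e_rt hv_al)
open scoped MatrixGroups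

variable {l n : ℕ} {R : SLD l n} {F : Type*} [Field F]

/-- The root elements. -/
noncomputable def x (r : R.Φ) (t : F) : GL (Fin l ⊕ Fin n) F :=
  ⟨XM R r.1 t, XM R r.1 (-t), by rw [XM_add r.2, add_neg_cancel, XM_zero r.2],
    by rw [XM_add r.2, neg_add_cancel, XM_zero r.2]⟩

@[simp] theorem x_val (r : R.Φ) (t : F) : (x r t : Matrix _ _ F) = XM R r.1 t := rfl

theorem x_inv (r : R.Φ) (t : F) : (x r t)⁻¹ = x r (-t) := Units.ext rfl

theorem x_zero (r : R.Φ) : x r (0 : F) = 1 := Units.ext (XM_zero r.2)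

theorem x_add (r : R.Φ) (t u : F) : x r t * x r u = x r (t + u) := Units.ext (XM_add r.2 t u)

theorem x_mul_neg (r : R.Φ) (t : F) : x r t * x r (-t) = 1 := by
  rw [x_add, add_neg_cancel, x_zero]

theorem x_neg_mul (r : R.Φ) (t : F) : x r (-t) * x r t = 1 := by
  rw [x_add, neg_add_cancel, x_zero]

theorem x_comm {a b : R.Φ} (h : 0 ≤ R.B a.1 b.1) (t u : F) : x a t * x b u = x b u * x a t :=
  Units.ext (XM_comm a.2 b.2 h t u)

theorem x_conj_rel {a b : R.Φ} (h : R.B a.1 b.1 = -1) (t u : F) :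
    x a t * x b u * (x a t)⁻¹ = x b u * x (ad a b h) (ep F R.toLat a.1 b.1 * t * u) := by
  have h1 : x a t * x b u = x b u * x a t * x (ad a b h) (ep F R.toLat a.1 b.1 * t * u) :=
    Units.ext (XM_rel a.2 b.2 h t u)
  rw [h1, mul_assoc (x b u), x_comm (a := a) (by simp [a.2, h]), ← mul_assoc,
    mul_inv_cancel_right]

variable (F) in
/-- Subgroups generated by root subgroups. -/
def RR (S : R.Φ → Prop) : Subgroup (GL (Fin l ⊕ Fin n) F) :=
  Subgroup.closure {g | ∃ r t, S r ∧ g = x r t}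

theorem x_mem {S : R.Φ → Prop} {r : R.Φ} (h : S r) (t : F) : x r t ∈ RR F S :=
  Subgroup.subset_closure ⟨r, t, h, rfl⟩

theorem RR_le {S : R.Φ → Prop} {H : Subgroup (GL (Fin l ⊕ Fin n) F)}
    (h : ∀ r t, S r → x r t ∈ H) : RR F S ≤ H := by
  rw [RR, Subgroup.closure_le]
  rintro _ ⟨r, t, hr, rfl⟩
  exact h r t hr

theorem RR_mono {S T : R.Φ → Prop} (h : ∀ r, S r → T r) : RR F S ≤ RR F T :=
  RR_le fun r t hr => x_mem (h r hr) t

theorem RR_ind {S : R.Φ → Prop} {p : GL (Fin l ⊕ Fin n) F → Prop} (h1 : p 1)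
    (h2 : ∀ r t g, S r → p g → p (x r t * g)) {g} (hg : g ∈ RR F S) : p g := by
  induction hg using Subgroup.closure_induction_left with
  | one => exact h1
  | mul_left a ha g _ ih => obtain ⟨r, t, hr, rfl⟩ := ha; exact h2 r t g hr ih
  | inv_mul_cancel a ha g _ ih => obtain ⟨r, t, hr, rfl⟩ := ha; rw [x_inv]; exact h2 r _ g hr ih

theorem conj_RR {S : R.Φ → Prop} {H : Subgroup (GL (Fin l ⊕ Fin n) F)} {p}
    (h : ∀ r t, S r → p * x r t * p⁻¹ ∈ H) {g} (hg : g ∈ RR F S) : p * g * p⁻¹ ∈ H := by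
  refine RR_ind (p := fun g => p * g * p⁻¹ ∈ H) (by simp) (fun r t g hr ih => ?_) hg
  have : p * (x r t * g) * p⁻¹ = (p * x r t * p⁻¹) * (p * g * p⁻¹) := by group
  rw [this]
  exact H.mul_mem (h r t hr) ih

theorem x_conj_RR {S : R.Φ → Prop} {a : R.Φ}
    (h : ∀ r, S r → R.B a.1 r.1 ≠ -2 ∧ ∀ e : R.B a.1 r.1 = -1, S (ad a r e)) (t : F)
    {g} (hg : g ∈ RR F S) : x a t * g * (x a t)⁻¹ ∈ RR F S := by
  refine conj_RR (fun r u hr => ?_) hg
  by_cases e : R.B a.1 r.1 = -1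
  · rw [x_conj_rel e]
    exact (RR F S).mul_mem (x_mem hr _) (x_mem ((h r hr).2 e) _)
  · have := Lat.neg_two_le_B a.2 r.2
    have := (h r hr).1
    rw [x_comm (by omega), mul_inv_cancel_right]
    exact x_mem hr _

theorem split {S : R.Φ → Prop} {a : R.Φ}
    (h : ∀ r, S r → R.B a.1 r.1 ≠ -2 ∧ ∀ e : R.B a.1 r.1 = -1, S (ad a r e))
    {g} (hg : g ∈ RR F S) : ∃ t, ∃ u ∈ RR F fun r => S r ∧ r ≠ a, g = u * x a t := by
  have key : ∀ t, ∀ g ∈ RR F fun r => S r ∧ r ≠ a,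
      x a t * g * (x a t)⁻¹ ∈ RR F fun r => S r ∧ r ≠ a :=
    fun t g hg => x_conj_RR (fun r hr => ⟨(h r hr.1).1, fun e => ⟨(h r hr.1).2 e, fun e2 =>
      Lat.ne_zero_of_root r.2 (by simpa using congrArg Subtype.val e2)⟩⟩) t hg
  refine RR_ind (p := fun g => ∃ t, ∃ u ∈ RR F fun r => S r ∧ r ≠ a, g = u * x a t)
    ⟨0, 1, Subgroup.one_mem _, by simp [x_zero]⟩ ?_ hg
  rintro r t _ hr ⟨t', u, hu, rfl⟩
  by_cases e : r = a
  · subst e
    exact ⟨t + t', _, key t u hu, by rw [← x_add]; group⟩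
  · exact ⟨t', _, Subgroup.mul_mem _ (x_mem ⟨hr, e⟩ t) hu, by group⟩

variable (R F) in
/-- The adjoint group. -/
def G : Subgroup (GL (Fin l ⊕ Fin n) F) := RR F fun _ : R.Φ => True

variable (R F) in
/-- The unipotent subgroup. -/
def U : Subgroup (GL (Fin l ⊕ Fin n) F) := RR F fun r : R.Φ => 0 < ht r.1

theorem x_mem_G (r : R.Φ) (t : F) : x r t ∈ G R F := x_mem trivial t

theorem U_le_G : U R F ≤ G R F := RR_mono fun _ _ => trivial

variable (R) in
/-- Monomial matrices. -/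
structure IsN (m : GL (Fin l ⊕ Fin n) F) (w : (Fin l → ℤ) ≃ₗ[ℤ] (Fin l → ℤ))
    (χ : (Fin l → ℤ) → F) : Prop where
  iso : ∀ u v, R.B (w u) (w v) = R.B u v
  zero : χ 0 = 1
  add : ∀ u v, χ (u + v) * ep F R.toLat u v = χ u * χ v * ep F R.toLat (w u) (w v)
  hv : ∀ v, (m : Matrix _ _ F) *ᵥ hv F n v = hv F n (w v)
  e : ∀ s, R.B s s = 2 → (m : Matrix _ _ F) *ᵥ R.e F s = χ s • R.e F (w s)

namespace IsN

variable {m m' : GL (Fin l ⊕ Fin n) F} {w w' : (Fin l → ℤ) ≃ₗ[ℤ] (Fin l → ℤ)}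
  {χ χ' : (Fin l → ℤ) → F}

theorem e' (h : IsN R m w χ) (s : Fin l → ℤ) :
    (m : Matrix _ _ F) *ᵥ R.e F s = χ s • R.e F (w s) := by
  by_cases hs : R.B s s = 2
  · exact h.e s hs
  · rw [R.e_zero hs, R.e_zero (by rwa [h.iso])]; simp

theorem neg_mul (h : IsN R m w χ) (s : Fin l → ℤ) : χ (-s) * χ s = 1 := by
  have h1 := h.add (-s) s
  have h2 := Eb_add_swap R.toLat s s
  have h3 := Eb_add_swap R.toLat (w s) (w s)
  rw [h.iso] at h3
  rw [neg_add_cancel, h.zero, one_mul, map_neg, ep_neg_left, ep_neg_left, ep, ep,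
    show Eb R.toLat (w s) (w s) = Eb R.toLat s s by omega] at h1
  exact (mul_eq_right₀ (ep_ne_zero (F := F) (R := R) s s)).1 h1.symm

theorem add' (h : IsN R m 1 χ) (u v : Fin l → ℤ) : χ (u + v) = χ u * χ v :=
  mul_right_cancel₀ (ep_ne_zero (F := F) (R := R) u v) (h.add u v)

theorem ne_zero (h : IsN R m w χ) (s : Fin l → ℤ) : χ s ≠ 0 :=
  right_ne_zero_of_mul_eq_one (h.neg_mul s)

theorem one : IsN R (1 : GL (Fin l ⊕ Fin n) F) 1 fun _ => 1 :=
  ⟨fun _ _ => rfl, rfl, by simp, by simp, by simp⟩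

theorem mul (h : IsN R m w χ) (h' : IsN R m' w' χ') :
    IsN R (m * m') (w * w') fun s => χ' s * χ (w' s) :=
  ⟨fun u v => by simp [h.iso, h'.iso], by simp [h.zero, h'.zero],
    fun u v => by
      have h1 := h.add (w' u) (w' v)
      have h2 := h'.add u v
      simp only [map_add, LinearEquiv.mul_apply]
      linear_combination χ (w' u + w' v) * h2 + χ' u * χ' v * h1,
    fun v => by rw [Units.val_mul, ← mulVec_mulVec, h'.hv, h.hv]; rfl,
    fun s _ => by rw [Units.val_mul, ← mulVec_mulVec, h'.e', mulVec_smul, h.e', smul_smul]; rfl⟩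

theorem inv (h : IsN R m w χ) : IsN R m⁻¹ w⁻¹ fun s => χ (-w⁻¹ s) := by
  have h1 : ∀ v, w (w⁻¹ v) = v := w.apply_symm_apply
  refine ⟨fun u v => by rw [← h.iso, h1, h1], by simp [h.zero],
    fun u v => ?_, fun v => ?_, fun s _ => ?_⟩
  · have h2 := h.add (-w⁻¹ u) (-w⁻¹ v)
    have q1 := ep_mul_self (F := F) (R := R) u v
    have q2 := ep_mul_self (F := F) (R := R) (w⁻¹ u) (w⁻¹ v)
    simp only [map_neg, h1, ep_neg_left, ep_neg_right] at h2
    rw [map_add, neg_add]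
    linear_combination ep F R.toLat u v * ep F R.toLat (w⁻¹ u) (w⁻¹ v) * h2 -
      χ (-w⁻¹ u + -w⁻¹ v) * ep F R.toLat u v * q2 +
      χ (-w⁻¹ u) * χ (-w⁻¹ v) * ep F R.toLat (w⁻¹ u) (w⁻¹ v) * q1
  · rw [← h1 v, ← h.hv, mulVec_mulVec, Units.inv_mul, one_mulVec, h1]
  · have := congrArg ((m⁻¹ : GL _ F).1 *ᵥ ·) (h.e' (w⁻¹ s))
    simp only [mulVec_mulVec, Units.inv_mul, one_mulVec, mulVec_smul, h1] at this
    rw [this, smul_smul, h.neg_mul, one_smul]

theorem congr (h : IsN R m w χ) (h1 : w = w') (h2 : ∀ s, χ s = χ' s) : IsN R m w' χ' := by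
  rwa [← h1, ← funext h2]

/-- The action on the roots. -/
def act (h : IsN R m w χ) (r : R.Φ) : R.Φ := ⟨w r.1, by rw [h.iso, r.2]⟩

@[simp] theorem act_val (h : IsN R m w χ) (r : R.Φ) : (h.act r).1 = w r.1 := rfl

theorem mul_x (h : IsN R m w χ) (r : R.Φ) (t : F) : m * x r t = x (h.act r) (χ r.1 * t) * m := by
  refine Units.ext (R.mat_ext (fun v => ?_) fun s hs => ?_)
  · simp only [Units.val_mul, ← mulVec_mulVec]
    simp [XM_hv, mulVec_add, mulVec_sub, mulVec_smul, h.hv, h.e', h.iso, -mulVec_mulVec]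
    module
  · have h1 := h.neg_mul r.1
    have h4 := h.add r.1 s
    rw [add_comm] at h4
    simp only [Units.val_mul, x_val, act_val, ← mulVec_mulVec, XM_e r.2, XM_e (h.act r).2,
      h.e', mulVec_smul, hs, if_true, mulVec_add, h.iso, map_add]
    have h2 := XM_e (h.act r).2 (χ r.1 * t) (w s)
    simp only [act_val, h.iso, hs, if_true] at h2
    rw [h2]
    split_ifs with h3
    · obtain rfl := (Lat.eq_neg_iff_B hs r.2).2 h3
      simp only [mulVec_add, mulVec_smul, h.hv, h.e']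
      match_scalars <;> first | ring1 | (clear * - h1 h4; grind)
    · simp only [mulVec_zero]
      match_scalars <;> first | ring1 | (clear * - h4; grind)

theorem conj (h : IsN R m w χ) (r : R.Φ) (t : F) :
    m * x r t * m⁻¹ = x (h.act r) (χ r.1 * t) := by
  rw [h.mul_x, mul_inv_cancel_right]

theorem x_mul (h : IsN R m w χ) (r : R.Φ) (t : F) :
    ∃ t', x r t * m = m * x (h.inv.act r) t' :=
  ⟨_, by rw [← h.inv.conj r t]; group⟩

theorem unique (h : IsN R m w χ) (h' : IsN R m w' χ') : w = w' := by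
  refine LinearEquiv.toLinearMap_injective ((Pi.basisFun ℤ _).ext fun i => ?_)
  have h1 := (h.e' (al i)).symm.trans (h'.e' (al i))
  obtain ⟨r, hr⟩ := R.surj (w (al i)) (by rw [h.iso, R.B_al_self])
  have h2 := congrFun h1 (Sum.inr r)
  simp only [Pi.smul_apply, e_inr, hr, if_true, smul_eq_mul, mul_one] at h2
  by_contra h3
  rw [if_neg (by simpa [al] using h3), mul_zero] at h2
  exact h.ne_zero _ h2

theorem eq_of (h : IsN R m w χ) (h' : IsN R m' w χ') (h1 : ∀ s, R.B s s = 2 → χ s = χ' s) :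
    m = m' :=
  Units.ext (R.mat_ext (fun v => by rw [h.hv, h'.hv]) fun s hs => by rw [h.e', h'.e', h1 s hs])

end IsN

/-- The standard monomial elements. -/
noncomputable def nn (r : R.Φ) (t : F) : GL (Fin l ⊕ Fin n) F := x r t * x (ng r) t⁻¹ * x r t

theorem nn_mem_G (r : R.Φ) (t : F) : nn r t ∈ G R F :=
  (G R F).mul_mem ((G R F).mul_mem (x_mem_G _ _) (x_mem_G _ _)) (x_mem_G _ _)

theorem isN_nn (r : R.Φ) {t : F} (ht : t ≠ 0) :
    IsN R (nn r t) (sw r) fun s => (ep F R.toLat r.1 s * t) ^ (-R.B s r.1) := by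
  refine ⟨Lat.sr_B r.2, by simp, fun u v => ?_, NM_hv r.2 ht, fun _ hs => NM_e r.2 ht hs⟩
  have hu := ep_swap (F := F) (R := R) r.1 u
  rw [R.B_comm] at hu
  simp only [sw_apply, sub_eq_add_neg, ← neg_smul, ep_add_left, ep_add_right, ep_smul_left,
    ep_smul_right, ep_self r.2, map_add, LinearMap.add_apply, hu, mul_zpow, neg_add,
    zpow_add₀ ht, zpow_add₀ (ep_ne_zero (F := F) (R := R) _ _)]
  have key : ∀ a b : ℤ, ((((a.negOnePow : ℤˣ) : ℤ) : F)) ^ (-b) * ((-1 : F) ^ (-a)) ^ (-b) = 1 := by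
    intro a b
    rw [← mul_zpow]
    rcases Int.even_or_odd a with h | h
    · rw [Int.negOnePow_even _ h, h.neg.neg_one_zpow]; simp
    · rw [Int.negOnePow_odd _ h, h.neg.neg_one_zpow]; simp
  have := key (R.B u r.1) (R.B v r.1)
  linear_combination (-(ep F R.toLat r.1 u ^ (-R.B u r.1) * t ^ (-R.B u r.1) *
    ep F R.toLat r.1 v ^ (-R.B v r.1) * t ^ (-R.B v r.1) * ep F R.toLat u v *
    ep F R.toLat r.1 v ^ (-R.B u r.1) * ep F R.toLat r.1 u ^ (-R.B v r.1))) * this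

theorem nn_inv (r : R.Φ) (t : F) : (nn r t)⁻¹ = nn r (-t) := by
  simp [nn, x_inv, mul_assoc, inv_neg]

variable (R F) in
/-- The monomial subgroup. -/
def N : Subgroup (GL (Fin l ⊕ Fin n) F) where
  carrier := {m | m ∈ G R F ∧ ∃ w χ, IsN R m w χ}
  one_mem' := ⟨(G R F).one_mem, _, _, IsN.one⟩
  mul_mem' := fun ⟨h1, _, _, h2⟩ ⟨h3, _, _, h4⟩ => ⟨(G R F).mul_mem h1 h3, _, _, h2.mul h4⟩
  inv_mem' := fun ⟨h1, _, _, h2⟩ => ⟨(G R F).inv_mem h1, _, _, h2.inv⟩

variable (R F) in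
/-- The diagonal subgroup. -/
def H : Subgroup (GL (Fin l ⊕ Fin n) F) where
  carrier := {m | m ∈ G R F ∧ ∃ χ, IsN R m 1 χ}
  one_mem' := ⟨(G R F).one_mem, _, IsN.one⟩
  mul_mem' := fun ⟨h1, _, h2⟩ ⟨h3, _, h4⟩ => ⟨(G R F).mul_mem h1 h3, _, h2.mul h4⟩
  inv_mem' := fun ⟨h1, _, h2⟩ => ⟨(G R F).inv_mem h1, _, h2.inv⟩

theorem H_le_N : H R F ≤ N R F := fun _ ⟨h1, _, h2⟩ => ⟨h1, _, _, h2⟩

theorem nn_mem_N (r : R.Φ) {t : F} (ht : t ≠ 0) : nn r t ∈ N R F :=
  ⟨nn_mem_G r t, _, _, isN_nn r ht⟩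

theorem conj_mem_H {m h : GL (Fin l ⊕ Fin n) F} (hm : m ∈ N R F) (hh : h ∈ H R F) :
    m⁻¹ * h * m ∈ H R F := by
  obtain ⟨h1, w, χ, h2⟩ := hm
  obtain ⟨h3, χ', h4⟩ := hh
  exact ⟨(G R F).mul_mem ((G R F).mul_mem ((G R F).inv_mem h1) h3) h1, _,
    ((h2.inv.mul h4).mul h2).congr (by simp) fun _ => rfl⟩

theorem H_conj_U {h u : GL (Fin l ⊕ Fin n) F} (hh : h ∈ H R F) (hu : u ∈ U R F) :
    h * u * h⁻¹ ∈ U R F := by
  obtain ⟨-, χ, h1⟩ := hh
  exact conj_RR (fun r t hr => by rw [h1.conj]; exact x_mem (by simpa using hr) _) hu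

theorem bruhat {g : GL (Fin l ⊕ Fin n) F} (hg : g ∈ G R F) :
    ∃ u ∈ U R F, ∃ m ∈ N R F, ∃ u' ∈ U R F, g = u * m * u' := by
  let S : Set (GL (Fin l ⊕ Fin n) F) := {g | ∃ u ∈ U R F, ∃ m ∈ N R F, ∃ u' ∈ U R F, g = u * m * u'}
  let K : Submonoid (GL (Fin l ⊕ Fin n) F) :=
    { carrier := {k | ∀ g ∈ S, k * g ∈ S}
      one_mem' := fun g hg => by simpa using hg
      mul_mem' := fun ha hb g hg => by rw [mul_assoc]; exact ha _ (hb g hg) }
  have hU : ∀ v ∈ U R F, v ∈ K := by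
    rintro v hv _ ⟨u, hu, m, hm, u', hu', rfl⟩
    exact ⟨_, (U R F).mul_mem hv hu, m, hm, u', hu', by group⟩
  have hn : ∀ i, ∀ c : F, c ≠ 0 → nn (R.sp i) c ∈ K := by
    rintro i c hc _ ⟨u, hu, m, hm, u', hu', rfl⟩
    have h0 := isN_nn (R.sp i) hc
    obtain ⟨t, u₁, hu₁, rfl⟩ := split (a := R.sp i) (fun r hr => ⟨fun e => by
      have := (Lat.eq_neg_iff_B (R.sp i).2 r.2).2 e
      have h1 := congrArg ht this
      rw [sp_val, ht_al, map_neg] at h1
      omega, fun e => by simp only [ad_val, sp_val, map_add, ht_al]; omega⟩) hu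
    have h1 : nn (R.sp i) c * u₁ * (nn (R.sp i) c)⁻¹ ∈ U R F :=
      conj_RR (fun r t hr => by rw [h0.conj]; exact x_mem (ht_sw_pos hr.1 hr.2) _) hu₁
    suffices nn (R.sp i) c * x (R.sp i) t * m * u' ∈ S by
      have h2 := hU _ h1 _ this
      convert h2 using 1
      group
    obtain ⟨hmG, w, χ, hw⟩ := id hm
    have hm' := (N R F).mul_mem (nn_mem_N (R.sp i) hc) hm
    rcases lt_or_gt_of_ne (Lat.ht_ne_zero (hw.inv.act (R.sp i)).2) with h2 | h2
    · by_cases ht0 : t = 0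
      · exact ⟨1, (U R F).one_mem, _, hm', u', hu', by simp [ht0, x_zero]⟩
      obtain ⟨t1, ht1, h3⟩ : ∃ t1, t1 ≠ 0 ∧
          nn (R.sp i) c * x (R.sp i) t = x (ng (R.sp i)) t1 * nn (R.sp i) c := by
        refine ⟨_, mul_ne_zero (h0.ne_zero (R.sp i).1) ht0, ?_⟩
        rw [h0.mul_x]
        congr 2
        exact Subtype.ext (by simp only [IsN.act_val, sw_apply, sp_val, Lat.B_al_self, ng_val]; module)
      have h4 : x (ng (R.sp i)) t1 = x (R.sp i) (-t1⁻¹) * nn (R.sp i) t1⁻¹ * x (R.sp i) (-t1⁻¹) := by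
        rw [nn, inv_inv, ← mul_assoc, ← mul_assoc, x_neg_mul, one_mul, mul_assoc, x_mul_neg,
          mul_one]
      obtain ⟨t', h5⟩ := (h0.mul hw).x_mul (R.sp i) (-t1⁻¹)
      refine ⟨_, x_mem (r := R.sp i) (by simp) (-t1⁻¹), _,
        (N R F).mul_mem (nn_mem_N (R.sp i) (inv_ne_zero ht1)) hm', _,
        (U R F).mul_mem (x_mem (r := (h0.mul hw).inv.act (R.sp i)) ?_ t') hu', ?_⟩
      · have h6 : (sw (R.sp i))⁻¹ (al i) = -al i := by
          rw [inv_eq_of_mul_eq_one_right (sw_mul_self _)]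
          simp only [sw_apply, sp_val, Lat.B_al_self]; module
        simp only [IsN.act_val, sp_val, _root_.mul_inv_rev, LinearEquiv.mul_apply, h6,
          map_neg] at h2 ⊢
        omega
      · rw [h3, h4]
        simp only [mul_assoc] at h5 ⊢
        rw [← mul_assoc (nn (R.sp i) c) m, ← mul_assoc (x (R.sp i) (-t1⁻¹)) (nn (R.sp i) c * m), h5]
        simp only [mul_assoc]
    · obtain ⟨t', h3⟩ := hw.x_mul (R.sp i) t
      exact ⟨1, (U R F).one_mem, _, hm', _, (U R F).mul_mem (x_mem h2 t') hu', by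
        rw [mul_assoc _ _ m, h3]; group⟩
  have hx : ∀ (r : R.Φ) (t : F), x r t ∈ K := by
    have hc : ∀ (i : Fin l) (r : R.Φ), (∀ t : F, x r t ∈ K) → ∀ t : F,
        x ((isN_nn (R.sp i) (one_ne_zero (α := F))).act r) t ∈ K := fun i r h t => by
      have h0 := isN_nn (R.sp i) (one_ne_zero (α := F))
      have := h0.conj r (((ep F R.toLat (R.sp i).1 r.1 * 1) ^ (-R.B r.1 (R.sp i).1))⁻¹ * t)
      rw [mul_inv_cancel_left₀ (h0.ne_zero r.1), nn_inv] at this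
      rw [← this]
      exact K.mul_mem (K.mul_mem (hn i 1 one_ne_zero) (h _)) (hn i _ (neg_ne_zero.2 one_ne_zero))
    have key : ∀ a (ha : R.B a a = 2), 0 < ht a → ∀ (ha : R.B a a = 2) (t : F),
        x (ng ⟨a, ha⟩) t ∈ K := fun a ha h => by
      refine Lat.root_induction (p := fun a => ∀ (ha : R.B a a = 2) (t : F), x (ng ⟨a, ha⟩) t ∈ K)
        (fun i _ t => ?_) (fun a i ha h1 h2 ih ha' t => ?_) ha h
      · convert hc i (R.sp i) (fun t => hU _ (x_mem (r := R.sp i) (by simp) t)) t using 2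
        exact Subtype.ext (by simp only [IsN.act_val, sw_apply, sp_val, Lat.B_al_self, ng_val]; module)
      · convert hc i (ng ⟨a, ha⟩) (ih ha) t using 2
        exact Subtype.ext (by
          simp only [IsN.act_val, sw_apply, sp_val, ng_val, map_neg, LinearMap.neg_apply, h2]
          module)
    intro r t
    rcases lt_or_gt_of_ne (Lat.ht_ne_zero r.2) with h | h
    · simpa [ng] using key (ng r).1 (ng r).2 (by simpa using h) (ng r).2 t
    · exact hU _ (x_mem h t)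
  exact RR_ind (p := fun g => g ∈ S) ⟨1, (U R F).one_mem, 1, (N R F).one_mem, 1, (U R F).one_mem,
    by simp⟩ (fun r t g _ h => hx r t g h) hg

end Cfsg.Agent.H9.Ch
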