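import Cfsg.Agent.H9.Ch.Tri
import Cfsg.Agent.H5.Ch.Fix
import Cfsg.Agent.H4.Basic

/-!
Regular elements and fixed points on the cosets of the Borel subgroup.
-/

set_option autoImplicit false
set_option linter.unusedSectionVars false
set_option linter.unusedSimpArgs false

namespace Cfsg.Agent.H9.Ch

open Matrix Cfsg.Agent.H5.Ch
open Cfsg.Agent.H5.Ch.SLD (Φ ng sp ad sw hv ng_val sp_val ad_val sw_apply sw_mul_self ht_sw_pos e_inr
  e_inl e_rt hv_al rt_ix ix_rt hv_inl hv_inr htI htI_inl htI_inr exists_perm)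
open scoped MatrixGroups

variable {l n : ℕ} {R : SLD l n} {F : Type*} [Field F]

theorem exists_H (v : Fin l → ℤ) {t : F} (ht : t ≠ 0) :
    ∃ h ∈ G R F, IsN R h 1 fun s => t ^ R.B s v := by
  induction v using Pi.single_induction with
  | zero => exact ⟨1, (G R F).one_mem, IsN.one.congr rfl (by simp)⟩
  | add u v hu hv =>
    obtain ⟨h, h1, h2⟩ := hu
    obtain ⟨h', h3, h4⟩ := hv
    exact ⟨_, (G R F).mul_mem h3 h1, (h4.mul h2).congr (mul_one _) fun s => by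
      simp [zpow_add₀ ht]⟩
  | single i m =>
    have : (Pi.single i m : Fin l → ℤ) = m • al i := by
      ext j; simp [al, Pi.single_apply]
    refine ⟨_, (G R F).mul_mem (nn_mem_G _ _) (nn_mem_G _ _), ((isN_nn (R.sp i)
      (zpow_ne_zero m ht)).mul (isN_nn (R.sp i) (neg_ne_zero.2 one_ne_zero))).congr (sw_mul_self _)
      fun s => ?_⟩
    have q := ep_mul_self (F := F) (R := R) (al i) s
    simp only [this, sw_apply, sp_val, map_sub, map_smul, LinearMap.sub_apply, LinearMap.smul_apply,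
      Lat.B_al_self, smul_eq_mul, sub_eq_add_neg, ← neg_smul, ep_add_right, ep_smul_right,
      ep_self (R.B_al_self i), map_add, LinearMap.add_apply]
    rw [show -(R.B s (al i) + -R.B s (al i) * 2) = R.B s (al i) by ring]
    generalize R.B s (al i) = c at *
    rw [mul_zpow _ (t ^ m), ← mul_assoc, ← _root_.zpow_mul t, mul_left_eq_self₀]
    left
    rw [_root_.zpow_neg, inv_mul_eq_one₀ (zpow_ne_zero _ (mul_ne_zero (ep_ne_zero _ _) (by simp)))]
    rcases Int.even_or_odd c with h | h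
    · rcases ep_cases (F := F) (R := R) (al i) s with h1 | h1 <;>
        simp [h1, h.neg_one_zpow, h.neg.neg_one_zpow]
    · rw [h.neg.neg_one_zpow]

theorem H_comm {h h' : GL (Fin l ⊕ Fin n) F} (hh : h ∈ H R F) (hh' : h' ∈ H R F) :
    h * h' = h' * h := by
  obtain ⟨-, χ, h1⟩ := hh
  obtain ⟨-, χ', h2⟩ := hh'
  exact (h1.mul h2).eq_of (h2.mul h1) fun s _ => by simp [mul_comm]

theorem eq_one_of_UH {u : GL (Fin l ⊕ Fin n) F} (hu : u ∈ U R F) (hh : u ∈ H R F) : u = 1 := by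
  obtain ⟨-, χ, h1⟩ := hh
  exact h1.eq_of IsN.one fun s hs => by rw [← h1.d_eq ⟨s, hs⟩, d_U hu]

variable (R) in
/-- Regular diagonal elements. -/
def IsReg (h : GL (Fin l ⊕ Fin n) F) : Prop :=
  h ∈ H R F ∧ ∀ i j, h.1 i i = h.1 j j → R.htI i = R.htI j

theorem IsReg.eq_one {h u : GL (Fin l ⊕ Fin n) F} (hh : IsReg R h) (hu : u ∈ U R F)
    (e : u * h = h * u) : u = 1 := by
  obtain ⟨⟨-, χ, h1⟩, h2⟩ := hh
  refine Units.ext (Matrix.ext fun i j => ?_)
  by_cases hij : i = j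
  · rw [hij, (U_tri hu).2, Units.val_one, one_apply_eq]
  rw [Units.val_one, one_apply_ne hij]
  by_contra h3
  have h4 : (u.1 * h.1) i j = (h.1 * u.1) i j := by rw [← Units.val_mul, e, Units.val_mul]
  rw [h1.val_eq] at h2
  rw [h1.val_eq, mul_diagonal, diagonal_mul, mul_comm] at h4
  exact h3 ((U_tri hu).1 i j hij (h2 j i (by
    rw [diagonal_apply_eq, diagonal_apply_eq]; exact mul_right_cancel₀ h3 h4)).ge)

variable [Finite F]

theorem IsReg.fix {h g : GL (Fin l ⊕ Fin n) F} (hh : IsReg R h) (hg : g ∈ G R F)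
    (e : g⁻¹ * h * g ∈ Bo R F) : ∃ m ∈ N R F, m⁻¹ * g ∈ Bo R F := by
  obtain ⟨u, hu, m, hm, u', hu', rfl⟩ := bruhat hg
  refine ⟨m, hm, ?_⟩
  let V : Set (GL (Fin l ⊕ Fin n) F) := {v | v ∈ U R F ∧ m⁻¹ * v * m ∈ Bo R F}
  let θ : GL (Fin l ⊕ Fin n) F → GL (Fin l ⊕ Fin n) F := fun v => v⁻¹ * (h * v * h⁻¹)
  have h1 : m⁻¹ * h * m ∈ Bo R F := H_le_Bo (conj_mem_H hm hh.1)
  have hinj : Set.InjOn θ (U R F) := fun v hv v' hv' e => by
    have := hh.eq_one ((U R F).mul_mem hv' ((U R F).inv_mem hv)) (by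
      have e' : v⁻¹ * (h * v * h⁻¹) = v'⁻¹ * (h * v' * h⁻¹) := e
      calc v' * v⁻¹ * h = v' * (v⁻¹ * (h * v * h⁻¹)) * (h * v⁻¹) := by group
        _ = _ := by rw [e']; group)
    exact (mul_inv_eq_one.1 this).symm
  have hθ : ∀ v ∈ U R F, θ v ∈ U R F := fun v hv =>
    (U R F).mul_mem ((U R F).inv_mem hv) (H_conj_U hh.1 hv)
  have hV : Set.MapsTo θ V V := fun v hv => ⟨hθ v hv.1, by
    convert (Bo R F).mul_mem ((Bo R F).mul_mem ((Bo R F).mul_mem ((Bo R F).inv_mem hv.2) h1) hv.2)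
      ((Bo R F).inv_mem h1) using 1
    simp only [θ]; group⟩
  obtain ⟨v, hv, e2⟩ := ((Set.toFinite V).injOn_iff_bijOn_of_mapsTo hV).1
    (hinj.mono fun v hv => hv.1) |>.surjOn (show θ u ∈ V from ⟨hθ u hu, by
      convert (Bo R F).mul_mem ((Bo R F).mul_mem ((Bo R F).mul_mem (U_le_Bo hu') e)
        ((Bo R F).inv_mem (U_le_Bo hu'))) ((Bo R F).inv_mem h1) using 1
      simp only [θ]; group⟩)
  obtain rfl := hinj hv.1 hu e2
  convert (Bo R F).mul_mem hv.2 (U_le_Bo hu') using 1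
  group

variable (R) in
/-- Very regular diagonal elements. -/
def VR (h : GL (Fin l ⊕ Fin n) F) : Prop :=
  h ∈ G R F ∧ ∃ χ, IsN R h 1 χ ∧ (∀ r : R.Φ, χ r.1 ≠ 1) ∧ ∀ r r' : R.Φ, χ r.1 = χ r'.1 → r = r'

omit [Finite F] in
theorem VR.mem_H {h : GL (Fin l ⊕ Fin n) F} (hh : VR R h) : h ∈ H R F :=
  ⟨hh.1, _, hh.2.choose_spec.1⟩

omit [Finite F] in
theorem VR.isReg {h : GL (Fin l ⊕ Fin n) F} (hh : VR R h) : IsReg R h := by
  obtain ⟨h1, χ, h2, h3, h4⟩ := hh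
  refine ⟨⟨h1, χ, h2⟩, ?_⟩
  rw [h2.val_eq]
  rintro (i | i) (j | j) e
  · rfl
  · exact absurd (by simpa using e.symm) (h3 ⟨_, R.norm j⟩)
  · exact absurd (by simpa using e) (h3 ⟨_, R.norm i⟩)
  · have := h4 ⟨_, R.norm i⟩ ⟨_, R.norm j⟩ (by simpa using e)
    simp only [htI_inr]
    exact congrArg (fun r : R.Φ => ht r.1) this

omit [Finite F] in
theorem IsN.conj_H {m h : GL (Fin l ⊕ Fin n) F} {w χ χ'} (hm : IsN R m w χ) (hh : IsN R h 1 χ') :
    IsN R (m⁻¹ * h * m) 1 fun v => χ' (w v) :=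
  ((hm.inv.mul hh).mul hm).congr (by simp) fun s => by
    have := hm.neg_mul s
    simp only [LinearEquiv.coe_one, id_eq]
    rw [show w⁻¹ (w s) = s from w.symm_apply_apply s]
    linear_combination χ' (w s) * this

omit [Finite F] in
theorem VR.conj {h m : GL (Fin l ⊕ Fin n) F} (hh : VR R h) (hm : m ∈ N R F) : VR R (m⁻¹ * h * m) := by
  obtain ⟨h1, χ, h2, h3, h4⟩ := hh
  obtain ⟨h5, w, χ', h6⟩ := hm
  refine ⟨(G R F).mul_mem ((G R F).mul_mem ((G R F).inv_mem h5) h1) h5, _, h6.conj_H h2,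
    fun r => h3 (h6.act r), fun r r' e => ?_⟩
  exact Subtype.ext (w.injective (congrArg Subtype.val (h4 (h6.act r) (h6.act r') e)))

theorem VR.mem_N {h z : GL (Fin l ⊕ Fin n) F} (hh : VR R h) (hz : z ∈ G R F)
    (e : z⁻¹ * h * z ∈ H R F) : z ∈ N R F := by
  obtain ⟨m, hm, u, hu, h0, hh0, e1⟩ := hh.isReg.fix hz (H_le_Bo e)
  obtain rfl : z = m * (u * h0) := by rw [← e1]; group
  have h1 := hh.conj hm
  have h2 : u⁻¹ * (m⁻¹ * h * m) * u ∈ H R F := by
    convert (H R F).mul_mem ((H R F).mul_mem hh0 e) ((H R F).inv_mem hh0) using 1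
    group
  have h3 := eq_one_of_UH ((U R F).mul_mem ((U R F).inv_mem hu) (H_conj_U h1.mem_H hu)) (by
    simpa only [mul_assoc] using (H R F).mul_mem h2 ((H R F).inv_mem h1.mem_H))
  rw [h1.isReg.eq_one hu (mul_inv_eq_iff_eq_mul.1 (inv_mul_eq_one.1 h3).symm).symm, one_mul]
  exact (N R F).mul_mem hm (H_le_N hh0)

omit [Finite F] in
theorem IsN.pow {m : GL (Fin l ⊕ Fin n) F} {w χ} (h : IsN R m w χ) (i : ℕ) :
    ∃ χ, IsN R (m ^ i) (w ^ i) χ := by
  induction i with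
  | zero => exact ⟨_, IsN.one⟩
  | succ i ih => exact ⟨_, by rw [pow_succ, pow_succ]; exact ih.choose_spec.mul h⟩

omit [Finite F] in
theorem pow_fact_mem_H {m : GL (Fin l ⊕ Fin n) F} (hm : m ∈ N R F) : m ^ n.factorial ∈ H R F := by
  obtain ⟨h1, w, χ, h2⟩ := hm
  obtain ⟨χ', h3⟩ := h2.pow n.factorial
  refine ⟨(G R F).pow_mem h1 _, χ', h3.congr ?_ fun _ => rfl⟩
  obtain ⟨π, hπ⟩ := exists_perm h2.iso
  have h4 : ∀ k : ℕ, ∀ r, R.rt ((π ^ k) r) = (w ^ k) (R.rt r) := fun k => by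
    induction k with
    | zero => simp
    | succ k ih => intro r; rw [pow_succ', pow_succ', Equiv.Perm.mul_apply, hπ, ih]; rfl
  have h5 : π ^ n.factorial = 1 := by
    have := pow_card_eq_one (x := π)
    rwa [Fintype.card_perm, Fintype.card_fin] at this
  refine LinearEquiv.toLinearMap_injective ((Pi.basisFun ℤ _).ext fun i => ?_)
  obtain ⟨r, hr⟩ := R.surj (al i) (R.B_al_self i)
  have := h4 n.factorial r
  rw [h5, hr] at this
  simpa [al] using (hr.symm.trans this).symm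

omit [Finite F] in
theorem ncard_modEq_fix {α : Type*} {p k : ℕ} (hp : p.Prime) (S : Set α) (hfin : S.Finite)
    (φ : α → α) (hS : Set.MapsTo φ S S) (h : ∀ x ∈ S, φ^[p ^ k] x = x) :
    S.ncard ≡ {x ∈ S | φ x = x}.ncard [MOD p] := by
  classical
  haveI := Fact.mk hp
  haveI := hfin.fintype
  have h1 := Equiv.Perm.card_fixedPoints_modEq (f := (hS.restrict φ S S : Function.End S)) (p := p)
    (n := k) (by
      refine funext fun x => Subtype.ext ?_
      change ((hS.restrict φ S S)^[p ^ k] x).1 = x.1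
      rw [hS.iterate_restrict]
      exact h x.1 x.2)
  rw [← Nat.card_eq_fintype_card, ← Nat.card_eq_fintype_card, Nat.card_coe_set_eq,
    Nat.card_coe_set_eq] at h1
  convert h1 using 1
  rw [← Set.ncard_image_of_injective _ (Subtype.val_injective (p := fun x => x ∈ S))]
  congr 1
  ext x
  constructor
  · rintro ⟨hx, e⟩
    exact ⟨⟨x, hx⟩, Subtype.ext e, rfl⟩
  · rintro ⟨y, hy, rfl⟩
    exact ⟨y.2, congrArg Subtype.val hy⟩

theorem norm_T {p k : ℕ} (hp : p.Prime) {h : GL (Fin l ⊕ Fin n) F} (hh : h ∈ H R F)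
    (hk : h ^ p ^ k = 1) (hv : VR R (h ^ n.factorial)) (A : Set (GL (Fin l ⊕ Fin n) F))
    (hA : ∀ a ∈ A, a ∈ H R F) {f : GL (Fin l ⊕ Fin n) F} (hf : f ∈ G R F)
    (hc : ∀ a ∈ A, f * a = a * f) (hfp : f ^ p ∈ A) :
    ∃ z ∈ G R F, z⁻¹ * f * z ∈ N R F ∧ ∀ a ∈ A, z⁻¹ * a * z ∈ H R F := by
  let S : Set (GL (Fin l ⊕ Fin n) F ⧸ N R F) :=
    {y | ∃ z ∈ G R F, y = z ∧ ∀ a ∈ A, z⁻¹ * a * z ∈ H R F}
  have hS : ∀ c ∈ G R F, (∀ a ∈ A, c * a = a * c) → ∀ y ∈ S, c • y ∈ S := by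
    rintro c hc e _ ⟨z, hz, rfl, h1⟩
    refine ⟨c * z, (G R F).mul_mem hc hz, rfl, fun a ha => ?_⟩
    rw [show (c * z)⁻¹ * a * (c * z) = z⁻¹ * (c⁻¹ * (a * c)) * z by group, ← e a ha,
      inv_mul_cancel_left]
    exact h1 a ha
  have h1 := H4.Basic.ncard_modEq_fixed_elt hp hk S (Set.toFinite _)
    (hS h hh.1 fun a ha => H_comm hh (hA a ha))
  have h2 := ncard_modEq_fix (k := 1) hp S (Set.toFinite _) (f • ·) (hS f hf hc) (by
    rintro _ ⟨z, hz, rfl, h3⟩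
    rw [smul_iterate, pow_one]
    change ((f ^ p * z : GL (Fin l ⊕ Fin n) F) : _ ⧸ N R F) = _
    rw [eq_comm, QuotientGroup.eq, ← mul_assoc]
    exact H_le_N (h3 _ hfp))
  have h3 : {y ∈ S | h • y = y} = {((1 : GL (Fin l ⊕ Fin n) F) : _ ⧸ N R F)} := by
    ext y
    constructor
    · rintro ⟨⟨z, hz, rfl, -⟩, e⟩
      rw [MulAction.Quotient.smul_coe, smul_eq_mul, eq_comm, QuotientGroup.eq, ← mul_assoc] at e
      have h4 := pow_fact_mem_H e
      rw [show (z⁻¹ * h * z) ^ n.factorial = z⁻¹ * h ^ n.factorial * z by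
        simpa using conj_pow (a := z⁻¹) (b := h) (i := n.factorial)] at h4
      rw [Set.mem_singleton_iff, eq_comm, QuotientGroup.eq]
      simpa using hv.mem_N hz h4
    · rintro rfl
      exact ⟨⟨1, (G R F).one_mem, rfl, by simpa using hA⟩, by
        rw [MulAction.Quotient.smul_coe, smul_eq_mul, eq_comm, QuotientGroup.eq]
        simpa using H_le_N hh⟩
  rw [h3, Set.ncard_singleton] at h1
  obtain ⟨_, ⟨z, hz, rfl, h5⟩, e⟩ : {y ∈ S | f • y = y}.Nonempty := by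
    by_contra h4
    rw [Set.not_nonempty_iff_eq_empty.1 h4, Set.ncard_empty] at h2
    exact hp.one_lt.ne' (Nat.dvd_one.1 (Nat.modEq_zero_iff_dvd.1 (h1.symm.trans h2)))
  rw [MulAction.Quotient.smul_coe, smul_eq_mul, eq_comm, QuotientGroup.eq] at e
  exact ⟨z, hz, by rwa [mul_assoc], h5⟩

end Cfsg.Agent.H9.Ch
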