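import Cfsg.Agent.H5.Ch.Rel

/-!
Root elements of the simply laced adjoint groups in any characteristic.
-/

set_option autoImplicit false
set_option linter.unusedSectionVars false
set_option linter.unusedSimpArgs false

namespace Cfsg.Agent.H9.Ch

open Matrix Cfsg.Agent.H5.Ch Cfsg.Agent.H5.Ch.SLD

variable {l n : ℕ}

/-- The upper triangular half of the Cartan matrix. -/
def Eh (R : Lat l) : Matrix (Fin l) (Fin l) ℤ :=
  Matrix.of fun i j => if i < j then R.C i j else if i = j then 1 else 0

/-- The bilinear form giving the signs. -/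
def Eb (R : Lat l) : (Fin l → ℤ) →ₗ[ℤ] (Fin l → ℤ) →ₗ[ℤ] ℤ := Matrix.toLinearMap₂' ℤ (Eh R)

theorem Eb_sum (R : Lat l) (u v : Fin l → ℤ) : Eb R u v = ∑ i, ∑ j, u i * Eh R i j * v j := by
  simp [Eb, Matrix.toLinearMap₂'_apply', dotProduct, mulVec, Finset.mul_sum, mul_assoc]

theorem Eb_add_swap (R : Lat l) (u v : Fin l → ℤ) : Eb R u v + Eb R v u = R.B u v := by
  rw [Eb_sum, Eb_sum, R.B_sum, Finset.sum_comm (f := fun i j => v i * Eh R i j * u j),
    ← Finset.sum_add_distrib]
  refine Finset.sum_congr rfl fun i _ => ?_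
  rw [← Finset.sum_add_distrib]
  refine Finset.sum_congr rfl fun j _ => ?_
  rcases lt_trichotomy i j with h | h | h
  · simp [Eh, h, h.not_gt, h.ne']
  · subst h; simp [Eh, R.diag]; ring
  · simp [Eh, h, h.not_gt, h.ne', R.symm i j]; ring

variable (F : Type*) [Field F]

/-- The sign cocycle. -/
def ep (R : Lat l) (u v : Fin l → ℤ) : F := (((Eb R u v).negOnePow : ℤˣ) : ℤ)

variable {F} {R : SLD l n}

theorem ep_add_left (u v w : Fin l → ℤ) :
    ep F R.toLat (u + v) w = ep F R.toLat u w * ep F R.toLat v w := by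
  simp [ep, Int.negOnePow_add]

theorem ep_add_right (u v w : Fin l → ℤ) :
    ep F R.toLat u (v + w) = ep F R.toLat u v * ep F R.toLat u w := by
  simp [ep, Int.negOnePow_add]

theorem ep_neg_left (u v : Fin l → ℤ) : ep F R.toLat (-u) v = ep F R.toLat u v := by simp [ep]

theorem ep_neg_right (u v : Fin l → ℤ) : ep F R.toLat u (-v) = ep F R.toLat u v := by simp [ep]

theorem ep_zero_left (v : Fin l → ℤ) : ep F R.toLat 0 v = 1 := by simp [ep]

theorem ep_zero_right (v : Fin l → ℤ) : ep F R.toLat v 0 = 1 := by simp [ep]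

theorem ep_cases (u v : Fin l → ℤ) : ep F R.toLat u v = 1 ∨ ep F R.toLat u v = -1 := by
  rcases Int.units_eq_one_or (Eb R.toLat u v).negOnePow with h | h <;> simp [ep, h]

theorem ep_mul_self (u v : Fin l → ℤ) : ep F R.toLat u v * ep F R.toLat u v = 1 := by
  rcases ep_cases (F := F) (R := R) u v with h | h <;> simp [h]

theorem ep_ne_zero (u v : Fin l → ℤ) : ep F R.toLat u v ≠ 0 :=
  left_ne_zero_of_mul_eq_one (ep_mul_self u v)

theorem ep_self {a : Fin l → ℤ} (ha : R.B a a = 2) : ep F R.toLat a a = -1 := by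
  have := Eb_add_swap R.toLat a a
  rw [ep, show Eb R.toLat a a = 1 by omega]
  simp

theorem ep_swap (u v : Fin l → ℤ) :
    ep F R.toLat v u = (((R.B u v).negOnePow : ℤˣ) : ℤ) * ep F R.toLat u v := by
  rw [← Eb_add_swap, Int.negOnePow_add, ep, ep]
  rcases Int.units_eq_one_or (Eb R.toLat u v).negOnePow with h | h <;> simp [h]

theorem ep_swap0 {u v : Fin l → ℤ} (h : R.B u v = 0) : ep F R.toLat v u = ep F R.toLat u v := by
  rw [ep_swap, h]; simp

theorem ep_swap1 {u v : Fin l → ℤ} (h : R.B u v = 1) : ep F R.toLat v u = -ep F R.toLat u v := by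
  rw [ep_swap, h]; simp

theorem ep_swapm {u v : Fin l → ℤ} (h : R.B u v = -1) : ep F R.toLat v u = -ep F R.toLat u v := by
  rw [ep_swap, h]; simp

theorem ep_smul_left (c : ℤ) (u v : Fin l → ℤ) :
    ep F R.toLat (c • u) v = ep F R.toLat u v ^ c := by
  have h0 := ep_ne_zero (F := F) (R := R) u v
  induction c with
  | zero => simp [ep_zero_left]
  | succ k ih => rw [add_smul, one_smul, ep_add_left, ih, zpow_add_one₀ h0]
  | pred k ih =>
    rw [sub_smul, one_smul, sub_eq_add_neg, ep_add_left, ih, ep_neg_left, zpow_sub_one₀ h0,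
      inv_eq_of_mul_eq_one_right (ep_mul_self u v)]

theorem ep_smul_right (c : ℤ) (u v : Fin l → ℤ) :
    ep F R.toLat u (c • v) = ep F R.toLat u v ^ c := by
  have h0 := ep_ne_zero (F := F) (R := R) u v
  induction c with
  | zero => simp [ep_zero_right]
  | succ k ih => rw [add_smul, one_smul, ep_add_right, ih, zpow_add_one₀ h0]
  | pred k ih =>
    rw [sub_smul, one_smul, sub_eq_add_neg, ep_add_right, ih, ep_neg_right, zpow_sub_one₀ h0,
      inv_eq_of_mul_eq_one_right (ep_mul_self u v)]

variable (R) in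
/-- The root elements as matrices. -/
noncomputable def XM (a : Fin l → ℤ) (t : F) : Matrix (Fin l ⊕ Fin n) (Fin l ⊕ Fin n) F :=
  Matrix.of fun i j => (Sum.elim (fun k => hv F n (al k) - (t * R.B (al k) a) • R.e F a)
    (fun s => R.e F (R.rt s) + (t * ep F R.toLat a (R.rt s)) • R.e F (R.rt s + a) +
      if R.rt s = -a then (-t) • hv F n a + (t * t) • R.e F a else 0) j : _ → F) i

theorem XM_hv (a : Fin l → ℤ) (t : F) (v : Fin l → ℤ) :
    XM R a t *ᵥ hv F n v = hv F n v - (t * R.B v a) • R.e F a := by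
  induction v using Pi.single_induction with
  | zero => simp
  | add u v hu hv =>
    simp only [map_add, mulVec_add, hu, hv, LinearMap.add_apply, Int.cast_add]
    module
  | single i m =>
    have : (Pi.single i m : Fin l → ℤ) = m • al i := by
      ext j; simp [al, Pi.single_apply]
    have h : XM R a t *ᵥ hv F n (al i) = hv F n (al i) - (t * R.B (al i) a) • R.e F a := by
      conv_lhs => rw [hv_al, mulVec_single_one]
      rfl
    rw [this, map_zsmul, mulVec_smul, h]
    simp only [map_smul, LinearMap.smul_apply, smul_eq_mul, Int.cast_mul]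
    module

theorem XM_e {a : Fin l → ℤ} (ha : R.B a a = 2) (t : F) (s : Fin l → ℤ) :
    XM R a t *ᵥ R.e F s = if R.B s s = 2 then R.e F s + (t * ep F R.toLat a s) • R.e F (s + a) +
      (if R.B s a = -2 then (-t) • hv F n a + (t * t) • R.e F a else 0) else 0 := by
  by_cases hs : R.B s s = 2
  · obtain ⟨r, rfl⟩ := R.surj s hs
    simp only [if_pos hs, ← Lat.eq_neg_iff_B hs ha]
    conv_lhs => rw [e_rt, mulVec_single_one]
    rfl
  · simp [hs, R.e_zero hs]

theorem XM_e' {a : Fin l → ℤ} (ha : R.B a a = 2) (t : F) (s : Fin l → ℤ) :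
    XM R a t *ᵥ R.e F s = if R.B s s = 2 then R.e F s +
      (if R.B s a = -1 then (t * ep F R.toLat a s) • R.e F (s + a) else 0) +
      (if R.B s a = -2 then (-t) • hv F n a + (t * t) • R.e F a else 0) else 0 := by
  rw [XM_e ha]
  by_cases hs : R.B s s = 2
  · by_cases h : R.B s a = -1
    · simp [hs, h]
    · simp [hs, h, R.e_zero (mt (Lat.add_root_iff hs ha).1 h)]
  · simp [hs]

theorem XM_zero {a : Fin l → ℤ} (ha : R.B a a = 2) : XM R a (0 : F) = 1 :=
  R.mat_ext (fun v => by simp [XM_hv]) fun s hs => by simp [XM_e ha, hs]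

theorem XM_add {a : Fin l → ℤ} (ha : R.B a a = 2) (t u : F) :
    XM R a t * XM R a u = XM R a (t + u) := by
  refine R.mat_ext (fun v => ?_) fun s hs => ?_
  · rw [← mulVec_mulVec]
    simp [XM_hv, mulVec_add, mulVec_sub, mulVec_smul, mulVec_neg, XM_e' ha, ha, -mulVec_mulVec]
    module
  · have has := R.B_comm a s
    rw [← mulVec_mulVec]
    rcases B_cases ha hs with rfl | rfl | h | h | h
    all_goals
      simp [XM_hv, mulVec_add, mulVec_sub, mulVec_smul, mulVec_neg, XM_e' ha, -mulVec_mulVec, *]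
    all_goals
      module

theorem XM_comm {a b : Fin l → ℤ} (ha : R.B a a = 2) (hb : R.B b b = 2) (hab : 0 ≤ R.B a b)
    (t u : F) : XM R a t * XM R b u = XM R b u * XM R a t := by
  have hba := R.B_comm b a
  obtain rfl | hab : a = b ∨ R.B a b = 0 ∨ R.B a b = 1 := by
    rw [Lat.eq_iff_B ha hb]
    have := Lat.B_le_two ha hb
    omega
  · rw [XM_add ha, XM_add ha, add_comm]
  have hs1 : ep F R.toLat b a = (((R.B a b).negOnePow : ℤˣ) : ℤ) * ep F R.toLat a b := ep_swap a b
  have q1 := ep_mul_self (F := F) (R := R) a b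
  refine R.mat_ext (fun v => ?_) fun s hs => ?_
  · simp only [← mulVec_mulVec]
    rcases hab with hab | hab
    all_goals
      simp [XM_hv, mulVec_add, mulVec_sub, mulVec_smul, mulVec_neg, XM_e' ha, XM_e' hb,
        -mulVec_mulVec, *]
      module
  · simp only [← mulVec_mulVec]
    by_cases h : s = a ∨ s = -a ∨ s = b ∨ s = -b
    · rcases hab with hab | hab <;> rcases h with rfl | rfl | rfl | rfl
      all_goals
        simp [XM_hv, mulVec_add, mulVec_sub, mulVec_smul, mulVec_neg, XM_e' ha, XM_e' hb,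
          -mulVec_mulVec, ha, hb, hab, hba, ep_add_right, ep_neg_right, ep_self ha, ep_self hb, hs1]
      all_goals
        match_scalars <;> first | ring1 | (clear * - q1; grind)
    have has := R.B_comm a s
    have hbs := R.B_comm b s
    have e1 : s + b + a = s + a + b := by abel
    have h3 : R.B s a = -1 ∨ R.B s a = 0 ∨ R.B s a = 1 := by have := B_cases ha hs; tauto
    have h4 : R.B s b = -1 ∨ R.B s b = 0 ∨ R.B s b = 1 := by have := B_cases hb hs; tauto
    rcases hab with hab | hab <;> rcases h3 with h3 | h3 | h3 <;> rcases h4 with h4 | h4 | h4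
    all_goals
      simp [XM_hv, mulVec_add, mulVec_sub, mulVec_smul, mulVec_neg, XM_e' ha, XM_e' hb,
        -mulVec_mulVec, ha, hb, hab, hba, hs, has, hbs, h3, h4, e1, ep_add_right, hs1]
    all_goals
      match_scalars <;> first | ring1 | (clear * - q1; grind)

theorem XM_rel {a b : Fin l → ℤ} (ha : R.B a a = 2) (hb : R.B b b = 2) (hab : R.B a b = -1)
    (t u : F) : XM R a t * XM R b u =
      XM R b u * XM R a t * XM R (a + b) (ep F R.toLat a b * t * u) := by
  have hba := R.B_comm b a
  have hc := (Lat.add_root_iff ha hb).2 hab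
  have hs1 : ep F R.toLat b a = -ep F R.toLat a b := ep_swapm hab
  have q1 := ep_mul_self (F := F) (R := R) a b
  have e2 : a + b + a = a + a + b := by abel
  have e3 : b + a = a + b := by abel
  have e4 : -a + (a + b) = b := by abel
  have e5 : -b + (a + b) = a := by abel
  have e6 : -(a + b) + a = -b := by abel
  have e7 : -(a + b) + b = -a := by abel
  refine R.mat_ext (fun v => ?_) fun s hs => ?_
  · simp only [← mulVec_mulVec]
    simp [XM_hv, mulVec_add, mulVec_sub, mulVec_smul, mulVec_neg, XM_e' ha, XM_e' hb, XM_e' hc,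
      -mulVec_mulVec, ha, hb, hab, hba, e3, hs1]
    match_scalars <;> first | ring1 | (clear * - q1; grind)
  · simp only [← mulVec_mulVec]
    by_cases h : s = a ∨ s = -a ∨ s = b ∨ s = -b ∨ s = a + b ∨ s = -(a + b)
    · rcases h with rfl | rfl | rfl | rfl | rfl | rfl
      all_goals
        simp [XM_hv, mulVec_add, mulVec_sub, mulVec_smul, mulVec_neg, XM_e' ha, XM_e' hb, XM_e' hc,
          -mulVec_mulVec, ha, hb, hab, hba, e3, e4, e5, e6, e7, -neg_add_rev, ep_add_right,
          ep_add_left, ep_neg_right, ep_self ha, ep_self hb, hs1]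
      all_goals
        match_scalars <;> first | ring1 | (clear * - q1; grind)
    have has := R.B_comm a s
    have hbs := R.B_comm b s
    have e1 : s + b + a = s + (a + b) := by abel
    have e1' : s + a + b = s + (a + b) := by abel
    have h3 : R.B s a = -1 ∨ R.B s a = 0 ∨ R.B s a = 1 := by have := B_cases ha hs; tauto
    have h4 : R.B s b = -1 ∨ R.B s b = 0 ∨ R.B s b = 1 := by have := B_cases hb hs; tauto
    have h5 : R.B s (a + b) = -1 ∨ R.B s (a + b) = 0 ∨ R.B s (a + b) = 1 := by
      have := B_cases hc hs; tauto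
    rw [map_add] at h5
    rcases h3 with h3 | h3 | h3 <;> rcases h4 with h4 | h4 | h4
    all_goals
      first
      | omega
      | simp [XM_hv, mulVec_add, mulVec_sub, mulVec_smul, mulVec_neg, XM_e' ha, XM_e' hb, XM_e' hc,
          -mulVec_mulVec, ha, hb, hab, hba, hs, has, hbs, h3, h4, e1, e1', ep_add_right,
          ep_add_left, hs1]
    all_goals
      match_scalars <;> first | ring1 | (clear * - q1; grind)

variable (R) in
/-- The monomial elements. -/
noncomputable def NM (a : Fin l → ℤ) (t : F) : Matrix (Fin l ⊕ Fin n) (Fin l ⊕ Fin n) F :=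
  XM R a t * XM R (-a) t⁻¹ * XM R a t

theorem NM_hv {a : Fin l → ℤ} (ha : R.B a a = 2) {t : F} (ht : t ≠ 0) (v : Fin l → ℤ) :
    NM R a t *ᵥ hv F n v = hv F n (R.sr a v) := by
  have ha' : R.B (-a) (-a) = 2 := by simpa using ha
  simp only [NM, ← mulVec_mulVec, Lat.sr_apply, map_sub, map_zsmul]
  simp [XM_hv, mulVec_add, mulVec_sub, mulVec_smul, mulVec_neg, XM_e' ha, XM_e' ha', -mulVec_mulVec,
    ha, LinearMap.map_neg, LinearMap.neg_apply, -zsmul_eq_mul]
  match_scalars <;> first | ring1 | (clear * - ht; grind)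

theorem NM_e {a : Fin l → ℤ} (ha : R.B a a = 2) {t : F} (ht : t ≠ 0) {s : Fin l → ℤ}
    (hs : R.B s s = 2) :
    NM R a t *ᵥ R.e F s = (ep F R.toLat a s * t) ^ (-R.B s a) • R.e F (R.sr a s) := by
  have ha' : R.B (-a) (-a) = 2 := by simpa using ha
  have has := R.B_comm a s
  have q1 := ep_mul_self (F := F) (R := R) a s
  have e1 : a - (2 : ℤ) • a = -a := by module
  have e2 : -a - (-2 : ℤ) • a = a := by module
  have e3 : s - (-1 : ℤ) • a = s + a := by module
  have e4 : s - (1 : ℤ) • a = s + -a := by module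
  simp only [NM, ← mulVec_mulVec, Lat.sr_apply]
  rcases B_cases ha hs with rfl | rfl | h | h | h
  all_goals
    simp only [LinearMap.map_neg, LinearMap.neg_apply, *]
    simp [XM_hv, mulVec_add, mulVec_sub, mulVec_smul, mulVec_neg, XM_e' ha, XM_e' ha',
      -mulVec_mulVec, LinearMap.map_neg, LinearMap.neg_apply, -zsmul_eq_mul, ep_add_right,
      ep_neg_right, ep_neg_left, ep_self ha, *]
  all_goals
    match_scalars <;> first | ring1 | (clear * - q1 ht; grind)

end Cfsg.Agent.H9.Ch
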