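import Cfsg.Agent.H9.Ch.E8x

/-!
Eigenvalues of semisimple elements of E8(3).
-/

set_option autoImplicit false
set_option linter.unusedSectionVars false
set_option linter.unusedSimpArgs false
set_option maxRecDepth 100000

namespace Cfsg.Agent.H9.Ch

open Matrix Cfsg.Lie Cfsg.Agent.H5.Ch Polynomial
open Cfsg.Agent.H5.Ch.SLD (Φ ng sp ad sw hv ng_val sp_val ad_val sw_apply sw_mul_self exists_perm)
open scoped MatrixGroups

section
variable {l n : ℕ} {R : SLD l n} {F : Type*} [Field F]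

theorem IsN.exists_lin {m : GL (Fin l ⊕ Fin n) F} {χ} (h : IsN R m 1 χ) {ζ : F} {p : ℕ} [NeZero p]
    (hζ : IsPrimitiveRoot ζ p) (hm : ∀ i, χ (al i) ^ p = 1) :
    ∃ a : (Fin l → ℤ) →ₗ[ℤ] ℤ, ∀ v, χ v = ζ ^ a v := by
  choose a ha' ha using fun i => hζ.eq_pow_of_pow_eq_one (hm i)
  have h0 := hζ.ne_zero (NeZero.ne p)
  refine ⟨(Pi.basisFun ℤ _).constr ℤ fun i => a i, fun v => ?_⟩
  rw [h.chi_eq]
  simp only [← ha, ← zpow_natCast, ← _root_.zpow_mul, Module.Basis.constr_apply_fintype,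
    Pi.basisFun_equivFun, LinearEquiv.refl_apply, smul_eq_mul]
  induction (Finset.univ : Finset (Fin l)) using Finset.induction_on with
  | empty => simp
  | insert i s hi ih => rw [Finset.prod_insert hi, Finset.sum_insert hi, zpow_add₀ h0, ih, mul_comm (v i)]

theorem alcove {θ : R.Φ} {c : ℤ} (hc : 0 < c) (hθ : ht θ.1 = c - 1)
    (hsum : ∀ β : R.Φ, (β = θ ∨ ∃ i, β = R.sp i) → ∑ r, R.B (R.rt r) β.1 • R.rt r = (2 * c) • β.1)
    {ζ : F} (h0 : ζ ≠ 0) {M : ℕ} (hM : 0 < M) (hζ : ζ ^ M = 1) {s : GL (Fin l ⊕ Fin n) F}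
    (a : (Fin l → ℤ) →ₗ[ℤ] ℤ) (hs : IsN R s 1 fun v => ζ ^ a v) :
    ∃ m ∈ G R F, ∃ a' : (Fin l → ℤ) →ₗ[ℤ] ℤ, IsN R (m⁻¹ * s * m) 1 (fun v => ζ ^ a' v) ∧
      (∀ i, 0 ≤ a' (al i)) ∧ a' θ.1 ≤ M := by
  let Q : ((Fin l → ℤ) →ₗ[ℤ] ℤ) → ℤ := fun a => ∑ r, (c * a (R.rt r) - M * ht (R.rt r)) ^ 2
  have hQ : ∀ a, 0 ≤ Q a := fun a => Finset.sum_nonneg fun _ _ => sq_nonneg _
  have hM' : (0 : ℤ) < M := by exact_mod_cast hM
  induction hk : (Q a).toNat using Nat.strong_induction_on generalizing s a with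
  | _ k ih =>
  by_contra hcon
  have key : ∀ (β : R.Φ) (d : ℤ), (β = θ ∨ ∃ i, β = R.sp i) → (M : ℤ) ∣ a β.1 - d →
      0 ≤ d * (c * d + M * ht β.1 - c * a β.1) := by
    rintro β d hβ ⟨j, hj⟩
    by_contra! hlt
    have h1 := isN_nn β (one_ne_zero (α := F))
    have h2 : ∀ φ : (Fin l → ℤ) →ₗ[ℤ] ℤ, ∑ r, R.B (R.rt r) β.1 * φ (R.rt r) = 2 * c * φ β.1 :=
      fun φ => by simpa only [map_sum, map_smul, smul_eq_mul] using congrArg φ (hsum β hβ)
    have h3 : Q (a - d • R.B.flip β.1) = Q a - 2 * c * d * (c * ∑ r, R.B (R.rt r) β.1 * a (R.rt r) -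
        M * ∑ r, R.B (R.rt r) β.1 * ht (R.rt r)) +
        c ^ 2 * d ^ 2 * ∑ r, R.B (R.rt r) β.1 * R.B.flip β.1 (R.rt r) := by
      simp only [Q, Finset.mul_sum, ← Finset.sum_sub_distrib, ← Finset.sum_add_distrib]
      refine Finset.sum_congr rfl fun r _ => ?_
      simp only [LinearMap.sub_apply, LinearMap.smul_apply, LinearMap.flip_apply, smul_eq_mul]
      ring
    rw [h2, h2, h2, LinearMap.flip_apply, β.2] at h3
    obtain ⟨m, hm, h4⟩ := ih _ (by
      have := hQ (a - d • R.B.flip β.1)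
      have h5 : Q (a - d • R.B.flip β.1) - Q a =
          4 * c ^ 2 * (d * (c * d + M * ht β.1 - c * a β.1)) := by rw [h3]; ring
      have : 4 * c ^ 2 * (d * (c * d + M * ht β.1 - c * a β.1)) < 0 :=
        mul_neg_of_pos_of_neg (by positivity) hlt
      omega) (a - d • R.B.flip β.1) ((h1.conj_H hs).congr rfl fun v => by
        simp only [sw_apply, map_sub, map_smul, smul_eq_mul,
          LinearMap.sub_apply, LinearMap.smul_apply, LinearMap.flip_apply]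
        rw [show a v - d * R.B v β.1 = a v - R.B v β.1 * a β.1 + M * (j * R.B v β.1) by
          linear_combination R.B v β.1 * hj, zpow_add₀ h0, _root_.zpow_mul]
        norm_cast
        rw [hζ, _root_.one_zpow, mul_one]) rfl
    exact hcon ⟨nn β 1 * m, (G R F).mul_mem (nn_mem_G _ _) hm, by
      rwa [show (nn β 1 * m)⁻¹ * s * (nn β 1 * m) = m⁻¹ * ((nn β 1)⁻¹ * s * nn β 1) * m by group]⟩
  refine hcon ⟨1, (G R F).one_mem, a, by simpa using hs, fun i => ?_, ?_⟩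
  · have := key (R.sp i) (a (al i)) (Or.inr ⟨i, rfl⟩) (by simp)
    simp only [sp_val, ht_al] at this
    nlinarith
  · have := key θ (a θ.1 - M) (Or.inl rfl) (by simp)
    rw [hθ] at this
    nlinarith

theorem IsN.charpoly {m : GL (Fin l ⊕ Fin n) F} {χ} (h : IsN R m 1 χ) :
    m.1.charpoly = (X - 1) ^ l * ∏ r, (X - C (χ (R.rt r))) := by
  rw [h.val_eq, charpoly_diagonal, Fintype.prod_sum_type]
  simp

theorem zpow_modEq {ζ : F} {p : ℕ} (hp : p ≠ 0) (h : IsPrimitiveRoot ζ p)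
    {x y : ℤ} (e : ζ ^ x = ζ ^ y) : x % p = y % p := by
  have h0 := h.ne_zero hp
  rw [← div_eq_one_iff_eq (zpow_ne_zero _ h0), ← zpow_sub₀ h0, h.zpow_eq_one_iff_dvd] at e
  exact (Int.modEq_iff_dvd.2 e).symm

end

/-- The algebraic closure of the field with three elements. -/
abbrev K3 := AlgebraicClosure (ZMod 3)

instance instCharK3 : CharP K3 3 := inferInstance

theorem locFin (T : Finset K3) : ∃ E : Subfield K3, Finite E ∧ (T : Set K3) ⊆ E := by
  haveI := IntermediateField.finiteDimensional_adjoin (K := ZMod 3) (S := (T : Set K3))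
    fun x _ => Algebra.IsIntegral.isIntegral x
  exact ⟨(IntermediateField.adjoin (ZMod 3) (T : Set K3)).toSubfield,
    Module.finite_of_finite (ZMod 3) (M := IntermediateField.adjoin (ZMod 3) (T : Set K3)),
    IntermediateField.subset_adjoin _ _⟩

/-- The representation of `E8(3)` over the algebraic closure. -/
noncomputable def rho : chevE8.group (ZMod 3) →* GL (Fin 8 ⊕ Fin 240) K3 :=
  (GeneralLinearGroup.map (algebraMap (ZMod 3) K3)).comp
    ((MulAut.conj (dU (ZMod 3))).toMonoidHom.comp (chevE8.group (ZMod 3)).subtype)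

theorem rho_inj : Function.Injective rho :=
  (map_inj _).comp ((MulAut.conj (dU (ZMod 3))).injective.comp Subtype.val_injective)

theorem rho_mem (g : chevE8.group (ZMod 3)) : rho g ∈ G E8 K3 := map_RR _ (conj_mem_G g.2)

theorem rho_frob (g : chevE8.group (ZMod 3)) :
    GeneralLinearGroup.map (frobenius K3 3) (rho g) = rho g :=
  Units.ext (Matrix.ext fun i j => by
    change (algebraMap (ZMod 3) K3 _) ^ 3 = algebraMap (ZMod 3) K3 _
    rw [← map_pow, ZMod.pow_card])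

/-- The highest root. -/
def th8 : E8.Φ := ⟨v8 [2, 3, 4, 6, 5, 4, 3, 2], by rw [E8_B]; rfl⟩

theorem hsum8 : (∀ i, (rl.map fun l => Bf (v8 l) th8.1 * v8 l i).sum = 60 * th8.1 i) ∧
    ∀ j i, (rl.map fun l => Bf (v8 l) (al j) * v8 l i).sum = 60 * al j i := by decide +kernel

/-- Invariance of a linear form under the Weyl group. -/
def Inv (a : (Fin 8 → ℤ) →ₗ[ℤ] ℤ) (M : ℕ) (k : ℤ) : Prop :=
  ∃ w : (Fin 8 → ℤ) ≃ₗ[ℤ] (Fin 8 → ℤ), (∀ u v, E8.B (w u) (w v) = E8.B u v) ∧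
    ∀ v, a (w v) % M = k * a v % M

theorem spec {M : ℕ} (hM0 : M ≠ 0) (hM : ∀ p, p.Prime → p ∣ M → p = 2 ∨ 9 < p) {ζ : K3}
    (hζ : IsPrimitiveRoot ζ M) (g : chevE8.group (ZMod 3)) (hg : g ^ M = 1) :
    ∃ a : (Fin 8 → ℤ) →ₗ[ℤ] ℤ, (∀ i, 0 ≤ a (al i)) ∧ a th8.1 ≤ M ∧
      (∀ k : ℕ, (rho (g ^ k)).1.charpoly = (X - 1) ^ 8 * ∏ r, (X - C (ζ ^ (k * a (rt8 r))))) ∧
      Inv a M 3 ∧ ∀ (k : ℕ) y, y⁻¹ * g * y = g ^ k → Inv a M k := by
  haveI : NeZero M := ⟨hM0⟩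
  have h0 := hζ.ne_zero hM0
  obtain ⟨z, hz, h2, χ, h3⟩ := torus gen8 locFin hM0 (fun p hp h => ⟨fun e => by
    have := (CharP.cast_eq_zero_iff K3 3 p).1 e
    rw [Nat.prime_dvd_prime_iff_eq Nat.prime_three hp] at this
    have := hM p hp h
    omega, hM p hp h⟩) (rho_mem g) (by rw [← map_pow, hg, map_one])
  have hcj : ∀ (y g : GL (Fin 8 ⊕ Fin 240) K3) (k : ℕ), (y⁻¹ * g * y) ^ k = y⁻¹ * g ^ k * y :=
    fun y g k => by simpa using conj_pow (a := y⁻¹) (b := g) (i := k)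
  obtain ⟨a0, h4⟩ := h3.exists_lin hζ fun i => by
    rw [← sp_val (R := E8), ← h3.d_eq, ← d_pow (H_le_Bo ⟨h2, χ, h3⟩), hcj, ← map_pow, hg, map_one,
      mul_one, inv_mul_cancel, d_one]
  obtain ⟨m, hm, a, h6, h7, h8⟩ := alcove (R := E8) (θ := th8) (c := 30) (by norm_num)
    (by rw [ht_apply]; decide +kernel) (by
      have : ∀ β : Fin 8 → ℤ, (∀ i, (rl.map fun l => Bf (v8 l) β * v8 l i).sum = 60 * β i) →
          ∑ r, E8.B (E8.rt r) β • E8.rt r = (2 * 30 : ℤ) • β := fun β h => funext fun i => by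
        rw [Finset.sum_apply, Pi.smul_apply, smul_eq_mul, show (2 * 30 : ℤ) = 60 from rfl, ← h]
        simp only [E8_B]
        exact sum_rt fun v => Bf v β * v i
      rintro β (rfl | ⟨i, rfl⟩)
      · exact this _ hsum8.1
      · exact this _ (hsum8.2 i))
    h0 (Nat.pos_of_ne_zero hM0) hζ.pow_eq_one a0 (h3.congr rfl h4)
  have hy := (G E8 K3).mul_mem hz hm
  rw [show m⁻¹ * (z⁻¹ * rho g * z) * m = (z * m)⁻¹ * rho g * (z * m) by group] at h6
  generalize z * m = y at hy h6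
  have hk : ∀ k : ℕ, IsN E8 (y⁻¹ * rho (g ^ k) * y) 1 fun v => ζ ^ (k * a v) := fun k => by
    rw [map_pow, ← hcj]
    induction k with
    | zero => simpa using IsN.one
    | succ k ih =>
      rw [pow_succ]
      exact (ih.mul h6).congr (mul_one _) fun s => by
        simp only [LinearEquiv.coe_one, id_eq, ← zpow_add₀ h0]
        congr 1; push_cast; ring
  refine ⟨a, h7, h8, fun k => ?_, ?_, fun k u hu => ?_⟩
  · rw [← charpoly_units_conj' y, ← Matrix.coe_units_inv, ← Units.val_mul, ← Units.val_mul,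
      (hk k).charpoly]
    rfl
  · obtain ⟨w, h9, h10⟩ := frob (frobenius K3 3) hy (rho_mem g) (rho_frob g) h6
    refine ⟨w, h9, fun v => zpow_modEq hM0 hζ ?_⟩
    rw [h10, frobenius_def, ← zpow_natCast, ← _root_.zpow_mul, mul_comm]
    rfl
  · obtain ⟨w, h9, h10⟩ := exists_act' ((G E8 K3).mul_mem ((G E8 K3).mul_mem ((G E8 K3).inv_mem hy)
      (rho_mem u)) hy)
    refine ⟨w, h9, fun v => zpow_modEq hM0 hζ (h10 _ _ (fun v => ζ ^ (k * a v)) ((G E8 K3).mul_mem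
      ((G E8 K3).mul_mem ((G E8 K3).inv_mem hy) (rho_mem g)) hy) h6 ?_ v).symm⟩
    convert hk k using 1
    rw [← hu, map_mul, map_mul, map_inv]
    group

end Cfsg.Agent.H9.Ch
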