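import Cfsg.Agent.H9.Ch.Reg

/-!
Base change, and conjugation of semisimple elements into the diagonal subgroup.
-/

set_option autoImplicit false
set_option linter.unusedSectionVars false
set_option linter.unusedSimpArgs false

namespace Cfsg.Agent.H9.Ch

open Matrix Cfsg.Agent.H5.Ch
open Cfsg.Agent.H5.Ch.SLD (Φ ng sp ad sw hv ng_val sp_val ad_val sw_apply sw_mul_self ht_sw_pos e_inr
  e_inl e_rt hv_al rt_ix ix_rt hv_inl hv_inr htI htI_inl htI_inr exists_perm)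
open scoped MatrixGroups

variable {l n : ℕ} {R : SLD l n} {F : Type*} [Field F] {K : Type*} [Field K] (σ : K →+* F)

theorem map_e (v : Fin l → ℤ) (i : Fin l ⊕ Fin n) : σ (R.e K v i) = R.e F v i := by
  rcases i with i | i
  · simp [e_inl]
  · simp only [e_inr]; split_ifs <;> simp

theorem map_hv (v : Fin l → ℤ) (i : Fin l ⊕ Fin n) : σ (hv K n v i) = hv F n v i := by
  rcases i with i | i <;> simp

theorem map_ep (u v : Fin l → ℤ) : σ (ep K R.toLat u v) = ep F R.toLat u v := by simp [ep]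

theorem XM_map (a : Fin l → ℤ) (t : K) : (XM R a t).map σ = XM R a (σ t) := by
  ext i (j | j)
  · simp [XM, map_e, map_hv]
  · by_cases h : R.rt j = -a <;> simp [XM, map_e, map_hv, map_ep, h]

theorem map_x (r : R.Φ) (t : K) : GeneralLinearGroup.map σ (x r t) = x r (σ t) :=
  Units.ext (XM_map σ r.1 t)

theorem map_RR {S : R.Φ → Prop} {g : GL (Fin l ⊕ Fin n) K} (hg : g ∈ RR K S) :
    GeneralLinearGroup.map σ g ∈ RR F S :=
  RR_le (H := (RR F S).comap (GeneralLinearGroup.map σ)) (fun r t hr => by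
    rw [Subgroup.mem_comap, map_x]; exact x_mem hr _) hg

theorem map_mulVec (m : GL (Fin l ⊕ Fin n) K) (y : Fin l ⊕ Fin n → K) (i : Fin l ⊕ Fin n) :
    ((GeneralLinearGroup.map σ m).1 *ᵥ fun j => σ (y j)) i = σ ((m.1 *ᵥ y) i) :=
  (RingHom.map_mulVec σ m.1 y i).symm

theorem IsN.map {m : GL (Fin l ⊕ Fin n) K} {w χ} (h : IsN R m w χ) :
    IsN R (GeneralLinearGroup.map σ m) w fun s => σ (χ s) := by
  refine ⟨h.iso, by simp [h.zero], fun u v => ?_, fun v => funext fun i => ?_,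
    fun s hs => funext fun i => ?_⟩
  · simpa [map_ep] using congrArg σ (h.add u v)
  · rw [← funext (map_hv σ v), map_mulVec, h.hv, map_hv]
  · rw [← funext (map_e σ s), map_mulVec, h.e']
    simp [map_e]

theorem map_H {g : GL (Fin l ⊕ Fin n) K} (hg : g ∈ H R K) : GeneralLinearGroup.map σ g ∈ H R F :=
  ⟨map_RR σ hg.1, _, hg.2.choose_spec.map σ⟩

theorem map_N {g : GL (Fin l ⊕ Fin n) K} (hg : g ∈ N R K) : GeneralLinearGroup.map σ g ∈ N R F :=
  ⟨map_RR σ hg.1, _, _, hg.2.choose_spec.choose_spec.map σ⟩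

theorem map_inj : Function.Injective (GeneralLinearGroup.map (n := Fin l ⊕ Fin n) σ) :=
  fun _ _ e => Units.ext (Matrix.map_injective σ.injective (congrArg Units.val e))

theorem IsN.chi_eq {m : GL (Fin l ⊕ Fin n) F} {χ} (h : IsN R m 1 χ) (v : Fin l → ℤ) :
    χ v = ∏ i, χ (al i) ^ v i := by
  induction v using Pi.single_induction with
  | zero => simp [h.zero]
  | add u v hu hv =>
    rw [h.add', hu, hv, ← Finset.prod_mul_distrib]
    exact Finset.prod_congr rfl fun i _ => (zpow_add₀ (h.ne_zero _) _ _).symm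
  | single i k =>
    rw [Finset.prod_eq_single i (fun j _ hj => by simp [hj]) (by simp), Pi.single_eq_same]
    have h1 : (Pi.single i k : Fin l → ℤ) = k • al i := by
      ext j; simp [al, Pi.single_apply]
    rw [h1]
    clear h1
    induction k with
    | zero => simp [h.zero]
    | succ k ih => rw [add_smul, one_smul, h.add', ih, zpow_add_one₀ (h.ne_zero _)]
    | pred k ih =>
      rw [zpow_sub_one₀ (h.ne_zero _), ← ih, eq_mul_inv_iff_mul_eq₀ (h.ne_zero _), ← h.add']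
      congr 1
      module

theorem H_of_map {g : GL (Fin l ⊕ Fin n) K} (hg : g ∈ G R K)
    (h : GeneralLinearGroup.map σ g ∈ H R F) : g ∈ H R K := by
  obtain ⟨-, χ, h1⟩ := h
  have h2 : ∀ v, ∃ c, σ c = χ v := fun v => ⟨∏ i, d R g (R.sp i) ^ v i, by
    rw [h1.chi_eq, map_prod]
    refine Finset.prod_congr rfl fun i _ => ?_
    rw [map_zpow₀, ← sp_val (R := R), ← h1.d_eq]
    rfl⟩
  choose c hc using h2
  refine ⟨hg, c, h1.iso, σ.injective (by simp [hc, h1.zero]), fun u v => σ.injective ?_,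
    fun v => funext fun i => σ.injective ?_, fun s hs => funext fun i => σ.injective ?_⟩
  · simpa [hc, map_ep] using h1.add u v
  · rw [← map_mulVec, funext (map_hv σ v), h1.hv, map_hv]
  · rw [← map_mulVec, funext (map_e σ s), h1.e']
    simp [map_e, hc]

theorem exists_sub {g : GL (Fin l ⊕ Fin n) K} (hg : g ∈ G R K) :
    ∃ T : Finset K, ∀ E : Subfield K, (T : Set K) ⊆ E →
      ∃ g0 ∈ G R E, GeneralLinearGroup.map E.subtype g0 = g := by
  classical
  refine RR_ind (p := fun g => ∃ T : Finset K, ∀ E : Subfield K, (T : Set K) ⊆ E →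
      ∃ g0 ∈ G R E, GeneralLinearGroup.map E.subtype g0 = g)
    ⟨∅, fun E _ => ⟨1, (G R E).one_mem, map_one _⟩⟩ ?_ hg
  rintro r t g - ⟨T, hT⟩
  refine ⟨insert t T, fun E hE => ?_⟩
  obtain ⟨g0, h1, h2⟩ := hT E fun y hy => hE (by simp [hy])
  exact ⟨x r ⟨t, hE (by simp)⟩ * g0, (G R E).mul_mem (x_mem_G _ _) h1, by
    rw [map_mul, map_x, h2]; rfl⟩

theorem exists_act' {y : GL (Fin l ⊕ Fin n) F} (hy : y ∈ G R F) :
    ∃ (w : (Fin l → ℤ) ≃ₗ[ℤ] (Fin l → ℤ)), (∀ u v, R.B (w u) (w v) = R.B u v) ∧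
      ∀ b χ χ', b ∈ G R F → IsN R b 1 χ → IsN R (y⁻¹ * b * y) 1 χ' → ∀ v, χ' v = χ (w v) := by
  obtain ⟨u, hu, m, ⟨hm, w, χ, h⟩, u', hu', rfl⟩ := bruhat hy
  refine ⟨w, h.iso, fun b χ1 χ2 hb h1 h2 v => ?_⟩
  have hb1 : b ∈ Bo R F := H_le_Bo ⟨hb, _, h1⟩
  have hb2 : (u * m * u')⁻¹ * b * (u * m * u') ∈ Bo R F :=
    H_le_Bo ⟨(G R F).mul_mem ((G R F).mul_mem ((G R F).inv_mem hy) hb) hy, _, h2⟩
  rw [h2.chi_eq, (h.conj_H h1).chi_eq]
  refine Finset.prod_congr rfl fun i _ => ?_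
  congr 1
  rw [← sp_val (R := R), ← h2.d_eq, ← h.act_val, ← h1.d_eq, ← d_conj_Bo hb1 (U_le_Bo hu), ← h.d_conj,
    ← d_conj_Bo hb2 (U_le_Bo ((U R F).inv_mem hu'))]
  congr 1
  group

theorem frob (σ : F →+* F) {z g : GL (Fin l ⊕ Fin n) F} (hz : z ∈ G R F) (hg : g ∈ G R F)
    (hσ : GeneralLinearGroup.map σ g = g) {χ} (h : IsN R (z⁻¹ * g * z) 1 χ) :
    ∃ w : (Fin l → ℤ) ≃ₗ[ℤ] (Fin l → ℤ), (∀ u v, R.B (w u) (w v) = R.B u v) ∧
      ∀ v, χ (w v) = σ (χ v) := by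
  obtain ⟨w, h1, h2⟩ := exists_act' ((G R F).mul_mem ((G R F).inv_mem hz) (map_RR σ hz))
  refine ⟨w, h1, fun v => (h2 _ _ (fun s => σ (χ s)) ((G R F).mul_mem ((G R F).mul_mem ((G R F).inv_mem hz) hg) hz)
    h ?_ v).symm⟩
  convert h.map σ using 1
  rw [map_mul, map_mul, map_inv, hσ]; group

variable (R) in
/-- Extra data on the root lattice. -/
structure Gen where
  v0 : Fin l → ℤ
  ne : ∀ r : R.Φ, R.B r.1 v0 ≠ 0
  inj : ∀ r r' : R.Φ, R.B r.1 v0 = R.B r'.1 v0 → r = r'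
  rho : Fin l → ℤ
  hrho : ∀ i, R.B (al i) rho = 1
  rig : ∀ w : (Fin l → ℤ) ≃ₗ[ℤ] (Fin l → ℤ), (∀ u v, R.B (w u) (w v) = R.B u v) →
    (∀ r : R.Φ, 0 < ht r.1 → 0 < ht (w r.1)) → w = 1

theorem Gen.B_rho (g : Gen R) (v : Fin l → ℤ) : R.B v g.rho = ht v := by
  simp only [Lat.B_eq_sum _ v, g.hrho, ht_apply, mul_one]

theorem exists_VR (g : Gen R) {p : ℕ} (hp : p.Prime) : ∃ k, ∀ (E : Type*) [Field E] (t : E),
    IsPrimitiveRoot t (p ^ k) → ∃ h ∈ H R E, h ^ p ^ k = 1 ∧ VR R (h ^ n.factorial) := by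
  obtain ⟨b, hb⟩ : ∃ b : ℕ, ∀ r, (R.B (R.rt r) g.v0).natAbs ≤ b :=
    ⟨Finset.univ.sup fun r => (R.B (R.rt r) g.v0).natAbs, fun r =>
      Finset.le_sup (f := fun r => (R.B (R.rt r) g.v0).natAbs) (Finset.mem_univ r)⟩
  have hb' : ∀ r : R.Φ, (R.B r.1 g.v0).natAbs ≤ b := fun r => by
    obtain ⟨s, hs⟩ := R.surj r.1 r.2
    rw [← hs]; exact hb s
  refine ⟨n.factorial * (2 * b), fun E _ t ht => ?_⟩
  have h0 := ht.ne_zero (pow_pos hp.pos _).ne'
  obtain ⟨h, h1, h2⟩ := exists_H (R := R) g.v0 h0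
  have h3 : ∀ k : ℕ, IsN R (h ^ k) 1 fun s => t ^ (k * R.B s g.v0) := fun k => by
    induction k with
    | zero => simpa using IsN.one
    | succ k ih =>
      rw [pow_succ]
      exact (ih.mul h2).congr (mul_one _) fun s => by
        simp only [LinearEquiv.coe_one, id_eq, ← zpow_add₀ h0]
        congr 1; push_cast; ring
  have key : ∀ y : ℤ, t ^ (n.factorial * y) = 1 → y.natAbs ≤ 2 * b → y = 0 := fun y e hy => by
    rw [ht.zpow_eq_one_iff_dvd] at e
    have h4 := Nat.lt_pow_self (n := n.factorial * (2 * b)) hp.one_lt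
    have h5 := Int.eq_zero_of_dvd_of_natAbs_lt_natAbs e (by
      rw [Int.natAbs_mul, Int.natAbs_natCast, Int.natAbs_natCast]
      exact lt_of_le_of_lt (Nat.mul_le_mul_left _ hy) h4)
    exact (mul_eq_zero.1 h5).resolve_left (by exact_mod_cast n.factorial_ne_zero)
  refine ⟨h, ⟨h1, _, h2⟩, (h3 _).eq_of IsN.one fun s _ => ?_, (G R E).pow_mem h1 _, _, h3 _,
    fun r e => g.ne r (key _ e (by have := hb' r; omega)), fun r r' e => g.inj r r' ?_⟩
  · rw [_root_.zpow_mul, zpow_natCast, ht.pow_eq_one, _root_.one_zpow]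
  · rw [← div_eq_one_iff_eq (zpow_ne_zero _ h0), ← zpow_sub₀ h0, ← mul_sub] at e
    have := key _ e (by have := hb' r; have := hb' r'; omega)
    omega

theorem normK (g : Gen R) [IsAlgClosed K]
    (hK : ∀ T : Finset K, ∃ E : Subfield K, Finite E ∧ (T : Set K) ⊆ E) {p : ℕ} (hp : p.Prime)
    (hpK : (p : K) ≠ 0) (A : Finset (GL (Fin l ⊕ Fin n) K)) (hA : ∀ a ∈ A, a ∈ H R K)
    {f : GL (Fin l ⊕ Fin n) K} (hf : f ∈ G R K) (hc : ∀ a ∈ A, f * a = a * f) (hfp : f ^ p ∈ A) :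
    ∃ z ∈ G R K, z⁻¹ * f * z ∈ N R K ∧ ∀ a ∈ A, z⁻¹ * a * z ∈ H R K := by
  classical
  obtain ⟨k, hk⟩ := exists_VR g hp
  haveI : NeZero ((p ^ k : ℕ) : K) := ⟨by exact_mod_cast pow_ne_zero k hpK⟩
  obtain ⟨t, ht⟩ := HasEnoughRootsOfUnity.exists_primitiveRoot K (p ^ k)
  obtain ⟨T, hT⟩ := exists_sub hf
  choose TA hTA using fun a : A => exists_sub (hA a.1 a.2).1
  obtain ⟨E, hE, hE'⟩ := hK (insert t (T ∪ Finset.univ.biUnion TA))
  obtain ⟨f0, hf0, rfl⟩ := hT E fun y hy => hE' (by simp [hy])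
  obtain ⟨h, h1, h2, h3⟩ := hk E ⟨t, hE' (by simp)⟩
    (IsPrimitiveRoot.of_map_of_injective (f := E.subtype) ht E.subtype.injective)
  obtain ⟨z, hz, h4, h5⟩ := norm_T hp h1 h2 h3
    {a | a ∈ G R E ∧ GeneralLinearGroup.map E.subtype a ∈ A}
    (fun a ha => H_of_map _ ha.1 (hA _ ha.2)) hf0
    (fun a ha => map_inj E.subtype (by rw [map_mul, map_mul, hc _ ha.2]))
    ⟨(G R E).pow_mem hf0 _, by rwa [map_pow]⟩
  refine ⟨_, map_RR E.subtype hz, by simpa only [map_mul, map_inv] using map_N E.subtype h4,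
    fun a ha => ?_⟩
  obtain ⟨a0, h6, h7⟩ := hTA ⟨a, ha⟩ E fun y hy => hE' (by
    simp only [Finset.coe_insert, Finset.coe_union, Finset.coe_biUnion, Set.mem_insert_iff,
      Set.mem_union, Set.mem_iUnion]
    exact Or.inr (Or.inr ⟨⟨a, ha⟩, by simp, hy⟩))
  have := map_H E.subtype (h5 a0 ⟨h6, by rw [h7]; exact ha⟩)
  simpa only [map_mul, map_inv, h7] using this

theorem exists_dom (g : Gen R) (v : Fin l → ℤ) : ∃ w : (Fin l → ℤ) ≃ₗ[ℤ] (Fin l → ℤ),
    (∀ u u', R.B (w u) (w u') = R.B u u') ∧ ∀ i, 0 ≤ R.B (al i) (w v) := by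
  induction hk : (R.B (v - g.rho) (v - g.rho)).toNat using Nat.strong_induction_on generalizing v with
  | _ k ih =>
  by_cases h : ∀ i, 0 ≤ R.B (al i) v
  · exact ⟨1, fun _ _ => rfl, h⟩
  push Not at h
  obtain ⟨i, hi⟩ := h
  have h0 := Lat.B_nonneg (R := R.toLat) (sw (R.sp i) v - g.rho)
  obtain ⟨w, h1, h2⟩ := ih _ (by
    rw [← hk]
    have : R.B (sw (R.sp i) v - g.rho) (sw (R.sp i) v - g.rho) < R.B (v - g.rho) (v - g.rho) := by
      simp only [sw_apply, sp_val, map_sub, map_smul, LinearMap.sub_apply, LinearMap.smul_apply,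
        Lat.B_al_self, smul_eq_mul, g.hrho, R.B_comm g.rho (al i), R.B_comm v (al i)]
      nlinarith
    omega) (sw (R.sp i) v) rfl
  exact ⟨w * sw (R.sp i), fun u u' => by
    rw [LinearEquiv.mul_apply, LinearEquiv.mul_apply, h1]; exact Lat.sr_B (R.B_al_self i) _ _, h2⟩

theorem root_neg (g : Gen R) {w : (Fin l → ℤ) ≃ₗ[ℤ] (Fin l → ℤ)}
    (hw : ∀ u v, R.B (w u) (w v) = R.B u v) (h2 : w * w = 1) (h1 : w ≠ 1) :
    ∃ r : R.Φ, w r.1 = -r.1 := by
  by_contra! hcon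
  have hww : ∀ v, w (w v) = v := fun v => LinearEquiv.congr_fun h2 v
  have h3 : ∀ r : R.Φ, R.B r.1 (g.v0 + w g.v0) ≠ 0 := fun r e => by
    have h4 : R.B r.1 (w g.v0) = R.B (w r.1) g.v0 := by rw [← hw, hww]
    rw [map_add, h4] at e
    have := g.inj r ⟨-w r.1, by simp [hw, r.2]⟩ (by simp only [map_neg, LinearMap.neg_apply]; omega)
    exact hcon r (by rw [← neg_eq_iff_eq_neg]; exact (congrArg Subtype.val this).symm)
  obtain ⟨y, h4, h5⟩ := exists_dom g (g.v0 + w g.v0)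
  have h6 : ∀ u, y (y⁻¹ u) = u := y.apply_symm_apply
  have h7 : ∀ r : R.Φ, R.B r.1 (y (g.v0 + w g.v0)) ≠ 0 := fun r => by
    rw [← h6 r.1, h4]
    exact h3 ⟨y⁻¹ r.1, by rw [← h4, h6, r.2]⟩
  have h8 : ∀ r : R.Φ, 0 < ht r.1 ↔ 0 < R.B r.1 (y (g.v0 + w g.v0)) := fun r => by
    have k1 : ∀ r : R.Φ, 0 < ht r.1 → 0 < R.B r.1 (y (g.v0 + w g.v0)) := fun r hr => by
      refine lt_of_le_of_ne ?_ (h7 r).symm
      rw [Lat.B_eq_sum]
      exact Finset.sum_nonneg fun i _ => mul_nonneg ((Lat.pos_iff r.2).2 hr i) (h5 i)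
    refine ⟨k1 r, fun h => ?_⟩
    by_contra h9
    have := Lat.ht_ne_zero r.2
    have := k1 (ng r) (by simp only [ng_val, map_neg]; omega)
    simp only [ng_val, map_neg, LinearMap.neg_apply] at this
    omega
  have h9 := g.rig (y * w * y⁻¹) (fun u v => by
    simp only [LinearEquiv.mul_apply, h4, hw]; rw [← h4, h6, h6]) fun r hr => by
    refine (h8 ⟨(y * w * y⁻¹) r.1, by
      simp only [LinearEquiv.mul_apply, h4, hw]; rw [← h4, h6, r.2]⟩).2 ?_
    have := (h8 r).1 hr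
    rw [← h6 r.1, h4, ← hw, map_add, hww, add_comm] at this
    simpa only [LinearEquiv.mul_apply, h4] using this
  exact h1 (by simpa [mul_inv_eq_iff_eq_mul] using h9)

theorem inv_red (g : Gen R) [IsAlgClosed K] (h2 : (2 : K) ≠ 0) {m : GL (Fin l ⊕ Fin n) K} {w χ}
    (hm : m ∈ G R K) (h : IsN R m w χ) (hw : w * w = 1) :
    ∃ z ∈ G R K, z⁻¹ * m * z ∈ H R K := by
  classical
  induction hk : (Finset.univ.filter fun r => w (R.rt r) ≠ R.rt r).card using Nat.strong_induction_on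
    generalizing m w χ with
  | _ k ih =>
  by_cases h1 : w = 1
  · subst h1
    exact ⟨1, (G R K).one_mem, by simpa using ⟨hm, _, h⟩⟩
  obtain ⟨r, hr⟩ := root_neg g h.iso hw h1
  obtain ⟨b, hb⟩ := IsAlgClosed.exists_eq_mul_self (-χ r.1)
  have hχ := h.neg_mul r.1
  have hb0 : b ≠ 0 := by
    rintro rfl
    exact h.ne_zero r.1 (by simpa using hb)
  have hb1 : (-b⁻¹ : K) ≠ 0 := by simpa using hb0
  have h3 := (isN_nn r hb1).mul h
  have h4 : h.act (ng r) = r := Subtype.ext (by simp [hr])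
  have h5 : h3.act r = r := Subtype.ext (by
    simp only [IsN.act_val, LinearEquiv.mul_apply, hr, sw_apply, map_neg, LinearMap.neg_apply, r.2]
    module)
  have h6 : x (ng r) (-b) = x r b⁻¹ * nn r (-b⁻¹) * x r b⁻¹ := by
    rw [nn, ← mul_assoc, ← mul_assoc, x_mul_neg, one_mul, mul_assoc, x_neg_mul, mul_one, inv_neg,
      inv_inv]
  have h7 : (x (ng r) b * x r (b⁻¹ / 2))⁻¹ * m * (x (ng r) b * x r (b⁻¹ / 2)) = nn r (-b⁻¹) * m := by
    have e1 := h.mul_x (ng r) b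
    have e2 := h3.mul_x r (b⁻¹ / 2)
    rw [h4] at e1
    rw [h5] at e2
    have e3 : χ (ng r).1 * b = -b⁻¹ := by
      rw [ng_val]; field_simp; linear_combination -hχ - χ (-r.1) * hb
    have e4 : χ r.1 * (ep K R.toLat r.1 (w r.1) * -b⁻¹) ^ (-R.B (w r.1) r.1) = -1 := by
      rw [hr, ep_neg_right, ep_self r.2]
      simp only [map_neg, LinearMap.neg_apply, r.2, neg_neg]
      rw [zpow_ofNat]; field_simp; linear_combination -hb
    rw [e3] at e1
    rw [e4] at e2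
    calc _ = x r (-(b⁻¹ / 2)) * (x (ng r) (-b) * (m * x (ng r) b)) * x r (b⁻¹ / 2) := by
          rw [_root_.mul_inv_rev, x_inv, x_inv]; group
      _ = x r (-(b⁻¹ / 2)) * x r b⁻¹ * (nn r (-b⁻¹) * m * x r (b⁻¹ / 2)) := by
          rw [e1, h6, ← mul_assoc (_ * _ * _), mul_assoc _ (x r b⁻¹), x_mul_neg]; group
      _ = _ := by
          rw [e2, ← mul_assoc, x_add, x_add, show -(b⁻¹ / 2) + b⁻¹ + -1 * (b⁻¹ / 2) = 0 by
            field_simp; ring, x_zero, one_mul]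
  have hww : ∀ v, w (w v) = v := fun v => LinearEquiv.congr_fun hw v
  obtain ⟨z, hz, h8⟩ := ih _ (by
    rw [← hk]
    refine Finset.card_lt_card ⟨fun s hs => ?_, fun hs => ?_⟩
    · simp only [Finset.mem_filter, Finset.mem_univ, true_and] at hs ⊢
      intro e
      have := h.iso (R.rt s) r.1
      rw [e, hr, map_neg] at this
      exact hs (by rw [LinearEquiv.mul_apply, e, sw_apply, show R.B (R.rt s) r.1 = 0 by omega]; simp)
    · obtain ⟨s, hs'⟩ := R.surj r.1 r.2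
      have := hs (show s ∈ _ by
        simp only [Finset.mem_filter, Finset.mem_univ, true_and, hs', hr]
        exact fun e => Lat.ne_zero_of_root r.2 (neg_eq_self.1 e))
      simp only [Finset.mem_filter, Finset.mem_univ, true_and, hs'] at this
      exact this (congrArg Subtype.val h5))
    ((G R K).mul_mem (nn_mem_G r _) hm) h3 (LinearEquiv.ext fun v => by
      have := h.iso v r.1
      rw [hr, map_neg] at this
      simp only [LinearEquiv.mul_apply, sw_apply, map_sub, map_smul, hww, hr, LinearEquiv.coe_one,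
        id_eq, LinearMap.sub_apply, LinearMap.smul_apply, map_neg, LinearMap.neg_apply, r.2,
        smul_eq_mul]
      rw [show R.B (w v) r.1 = -R.B v r.1 by omega]
      module) rfl
  exact ⟨x (ng r) b * x r (b⁻¹ / 2) * z,
    (G R K).mul_mem ((G R K).mul_mem (x_mem_G _ _) (x_mem_G _ _)) hz, by
      rw [← h7] at h8
      convert h8 using 1
      group⟩

theorem torus (g : Gen R) [IsAlgClosed K]
    (hK : ∀ T : Finset K, ∃ E : Subfield K, Finite E ∧ (T : Set K) ⊆ E) {M : ℕ} (hM0 : M ≠ 0)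
    (hM : ∀ p, p.Prime → p ∣ M → (p : K) ≠ 0 ∧ (p = 2 ∨ l + 1 < p))
    {f : GL (Fin l ⊕ Fin n) K} (hf : f ∈ G R K) (h : f ^ M = 1) :
    ∃ z ∈ G R K, z⁻¹ * f * z ∈ H R K := by
  classical
  induction M using Nat.strong_induction_on generalizing f with
  | _ M ih =>
  by_cases h1 : M = 1
  · subst h1
    exact ⟨1, (G R K).one_mem, by simp [show f = 1 by simpa using h, (H R K).one_mem]⟩
  obtain ⟨p, hp, M', rfl⟩ := Nat.exists_prime_and_dvd h1
  have hM' : M' ≠ 0 := right_ne_zero_of_mul hM0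
  obtain ⟨z, hz, h2⟩ := ih M' (lt_mul_of_one_lt_left (Nat.pos_of_ne_zero hM') hp.one_lt) hM'
    (fun q hq e => hM q hq (e.mul_left _)) ((G R K).pow_mem hf p) (by rw [← pow_mul, h])
  have e : z⁻¹ * f ^ p * z = (z⁻¹ * f * z) ^ p := by
    simpa using (conj_pow (a := z⁻¹) (b := f) (i := p)).symm
  rw [e] at h2
  have hf' := (G R K).mul_mem ((G R K).mul_mem ((G R K).inv_mem hz) hf) hz
  obtain ⟨hpK, hp2⟩ := hM p hp (dvd_mul_right _ _)
  obtain ⟨y, hy, ⟨h3, w, χ, h4⟩, h5⟩ := normK g hK hp hpK {(z⁻¹ * f * z) ^ p} (by simpa using h2) hf'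
    (by simpa using (Commute.self_pow _ p).eq) (by simp)
  have h6 := h5 _ (Finset.mem_singleton_self _)
  rw [show y⁻¹ * (z⁻¹ * f * z) ^ p * y = (y⁻¹ * (z⁻¹ * f * z) * y) ^ p by
    simpa using (conj_pow (a := y⁻¹) (b := z⁻¹ * f * z) (i := p)).symm] at h6
  have h7 : w ^ p = 1 := (h4.pow p).choose_spec.unique h6.2.choose_spec
  rcases hp2 with rfl | hp2
  · obtain ⟨y', hy', h8⟩ := inv_red g (by exact_mod_cast hpK) h3 h4 ((sq w).symm.trans h7)
    exact ⟨z * y * y', (G R K).mul_mem ((G R K).mul_mem hz hy) hy', by convert h8 using 1; group⟩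
  · obtain rfl := eq_one_of_pow_prime hp hp2 w h7
    have h8 : y⁻¹ * (z⁻¹ * f * z) * y ∈ H R K := ⟨h3, χ, h4⟩
    exact ⟨z * y, (G R K).mul_mem hz hy, by convert h8 using 1; group⟩

end Cfsg.Agent.H9.Ch
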