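import Cfsg.Agent.H9.Ch.Grp
import Cfsg.Agent.H5.Ch.Tri

/-!
Triangularity and the Borel subgroup.
-/

set_option autoImplicit false
set_option linter.unusedSectionVars false
set_option linter.unusedSimpArgs false

namespace Cfsg.Agent.H9.Ch

open Matrix Cfsg.Agent.H5.Ch
open Cfsg.Agent.H5.Ch.SLD (Φ ng sp ad sw hv ng_val sp_val ad_val sw_apply sw_mul_self ht_sw_pos e_inr
  e_inl e_rt hv_al rt_ix ix_rt hv_inl hv_inr htI htI_inl htI_inr)
open scoped MatrixGroups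

variable {l n : ℕ} {R : SLD l n} {F : Type*} [Field F]

variable (R) in
/-- Triangular matrices. -/
def Tri (A : Matrix (Fin l ⊕ Fin n) (Fin l ⊕ Fin n) F) : Prop :=
  ∀ i j, i ≠ j → R.htI i ≤ R.htI j → A i j = 0

section
variable {A A' : Matrix (Fin l ⊕ Fin n) (Fin l ⊕ Fin n) F}

theorem Tri.mul (h : Tri R A) (h' : Tri R A') : Tri R (A * A') := fun i j hij hle => by
  rw [mul_apply]
  refine Finset.sum_eq_zero fun k _ => ?_
  by_cases e : i = k
  · rw [h' k j (e ▸ hij) (e ▸ hle), mul_zero]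
  by_cases e2 : k = j
  · rw [h i k e (e2 ▸ hle), zero_mul]
  rcases le_or_gt (R.htI i) (R.htI k) with h1 | h1
  · rw [h i k e h1, zero_mul]
  · rw [h' k j e2 (by omega), mul_zero]

theorem Tri.diag (h : Tri R A) (h' : Tri R A') (i : Fin l ⊕ Fin n) :
    (A * A') i i = A i i * A' i i := by
  rw [mul_apply]
  refine Finset.sum_eq_single i (fun k _ hk => ?_) (by simp)
  rcases le_total (R.htI i) (R.htI k) with h1 | h1
  · rw [h i k hk.symm h1, zero_mul]
  · rw [h' k i hk h1, mul_zero]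

theorem Tri.one : Tri R (1 : Matrix (Fin l ⊕ Fin n) (Fin l ⊕ Fin n) F) :=
  fun _ _ h _ => one_apply_ne h

end

theorem XM_tri {a : Fin l → ℤ} (ha : R.B a a = 2) (h : 0 < ht a) (t : F) (i j : Fin l ⊕ Fin n)
    (hle : R.htI i ≤ R.htI j) : XM R a t i j = (1 : Matrix _ _ F) i j := by
  rcases j with k | s
  · change (hv F n (al k) - (t * R.B (al k) a) • R.e F a) i = _
    rcases i with i | r
    · by_cases e : i = k <;> simp [e_inl, al, e, one_apply]
    · have : R.rt r ≠ a := fun e => by simp [e] at hle; omega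
      simp [e_inr, this]
  · change (R.e F (R.rt s) + (t * ep F R.toLat a (R.rt s)) • R.e F (R.rt s + a) +
      if R.rt s = -a then (-t) • hv F n a + (t * t) • R.e F a else 0) i = _
    rcases i with i | r
    · have : R.rt s ≠ -a := fun e => by simp [e] at hle; omega
      simp [e_inl, this]
    · have h1 : R.rt r ≠ R.rt s + a := fun e => by simp [e] at hle; omega
      have h2 : R.rt s = -a → R.rt r ≠ a := fun e e' => by simp [e, e'] at hle; omega
      by_cases e : R.rt s = -a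
      · simp [e_inr, h1, h2 e, if_pos e, R.inj.eq_iff, one_apply]
      · simp [e_inr, h1, if_neg e, R.inj.eq_iff, one_apply]

theorem U_tri {u : GL (Fin l ⊕ Fin n) F} (hu : u ∈ U R F) :
    Tri R u.1 ∧ ∀ i, u.1 i i = 1 := by
  refine RR_ind (p := fun u : GL (Fin l ⊕ Fin n) F => Tri R u.1 ∧ ∀ i, u.1 i i = 1)
    ⟨Tri.one, fun i => one_apply_eq i⟩ (fun r t g hr ih => ?_) hu
  have h1 : Tri R (XM R r.1 t) := fun i j hij hle => by
    rw [XM_tri r.2 hr t i j hle, one_apply_ne hij]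
  exact ⟨h1.mul ih.1, fun i => by
    rw [Units.val_mul, x_val, h1.diag ih.1, ih.2, XM_tri r.2 hr t i i le_rfl, one_apply_eq, one_mul]⟩

theorem IsN.val_eq {m : GL (Fin l ⊕ Fin n) F} {χ : (Fin l → ℤ) → F} (h : IsN R m 1 χ) :
    m.1 = diagonal (Sum.elim (fun _ => 1) fun r => χ (R.rt r)) := by
  refine R.mat_ext (fun v => ?_) fun s hs => ?_
  · rw [h.hv]
    ext (i | i) <;> simp [mulVec_diagonal]
  · rw [h.e']
    ext (i | i)
    · simp [mulVec_diagonal, e_inl]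
    · by_cases e : R.rt i = s <;> simp [mulVec_diagonal, e_inr, e]

theorem H_tri {h : GL (Fin l ⊕ Fin n) F} (hh : h ∈ H R F) : Tri R h.1 := by
  obtain ⟨-, χ, h1⟩ := hh
  exact fun i j hij _ => by rw [h1.val_eq, diagonal_apply_ne _ hij]

variable (R F) in
/-- The Borel subgroup. -/
def Bo : Subgroup (GL (Fin l ⊕ Fin n) F) where
  carrier := {b | ∃ u ∈ U R F, ∃ h ∈ H R F, b = u * h}
  one_mem' := ⟨1, (U R F).one_mem, 1, (H R F).one_mem, by simp⟩
  mul_mem' := by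
    rintro _ _ ⟨u, hu, h, hh, rfl⟩ ⟨u', hu', h', hh', rfl⟩
    exact ⟨_, (U R F).mul_mem hu (H_conj_U hh hu'), _, (H R F).mul_mem hh hh', by group⟩
  inv_mem' := by
    rintro _ ⟨u, hu, h, hh, rfl⟩
    exact ⟨_, H_conj_U ((H R F).inv_mem hh) ((U R F).inv_mem hu), _, (H R F).inv_mem hh, by group⟩

theorem U_le_Bo : U R F ≤ Bo R F := fun u hu => ⟨u, hu, 1, (H R F).one_mem, by simp⟩

theorem H_le_Bo : H R F ≤ Bo R F := fun h hh => ⟨1, (U R F).one_mem, h, hh, by simp⟩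

theorem Bo_le_G : Bo R F ≤ G R F := by
  rintro _ ⟨u, hu, h, hh, rfl⟩
  exact (G R F).mul_mem (U_le_G hu) hh.1

theorem Bo_tri {b : GL (Fin l ⊕ Fin n) F} (hb : b ∈ Bo R F) : Tri R b.1 := by
  obtain ⟨u, hu, h, hh, rfl⟩ := hb
  exact (U_tri hu).1.mul (H_tri hh)

variable (R) in
/-- Diagonal entries. -/
noncomputable def d (g : GL (Fin l ⊕ Fin n) F) (r : R.Φ) : F :=
  g.1 (Sum.inr (R.ix r.2)) (Sum.inr (R.ix r.2))

theorem d_mul {b b' : GL (Fin l ⊕ Fin n) F} (hb : b ∈ Bo R F) (hb' : b' ∈ Bo R F) (r : R.Φ) :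
    d R (b * b') r = d R b r * d R b' r := (Bo_tri hb).diag (Bo_tri hb') _

theorem d_U {u : GL (Fin l ⊕ Fin n) F} (hu : u ∈ U R F) (r : R.Φ) : d R u r = 1 := (U_tri hu).2 _

theorem d_one (r : R.Φ) : d R (1 : GL (Fin l ⊕ Fin n) F) r = 1 := d_U (U R F).one_mem r

theorem d_pow {b : GL (Fin l ⊕ Fin n) F} (hb : b ∈ Bo R F) (r : R.Φ) (k : ℕ) :
    d R (b ^ k) r = d R b r ^ k := by
  induction k with
  | zero => simp [d_one]
  | succ k ih => rw [pow_succ, d_mul ((Bo R F).pow_mem hb k) hb, ih, pow_succ]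

theorem d_conj_Bo {b c : GL (Fin l ⊕ Fin n) F} (hb : b ∈ Bo R F) (hc : c ∈ Bo R F) (r : R.Φ) :
    d R (c⁻¹ * b * c) r = d R b r := by
  have hc' := (Bo R F).inv_mem hc
  rw [d_mul ((Bo R F).mul_mem hc' hb) hc, d_mul hc' hb, mul_right_comm, ← d_mul hc' hc,
    inv_mul_cancel, d_one, one_mul]

theorem IsN.d_eq {m : GL (Fin l ⊕ Fin n) F} {χ : (Fin l → ℤ) → F} (h : IsN R m 1 χ) (r : R.Φ) :
    d R m r = χ r.1 := by
  simp [d, h.val_eq]

theorem d_eq_mulVec (g : GL (Fin l ⊕ Fin n) F) (r : R.Φ) :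
    d R g r = (g.1 *ᵥ R.e F r.1) (Sum.inr (R.ix r.2)) := by
  simp [SLD.e, r.2, d]

theorem IsN.coord {m : GL (Fin l ⊕ Fin n) F} {w χ} (h : IsN R m w χ) (r : R.Φ)
    (y : Fin l ⊕ Fin n → F) : (m.1 *ᵥ y) (Sum.inr (R.ix (h.act r).2)) =
      χ r.1 * y (Sum.inr (R.ix r.2)) := by
  induction y using Pi.single_induction with
  | zero => simp
  | add u v hu hv => rw [mulVec_add, Pi.add_apply, hu, hv, Pi.add_apply, mul_add]
  | single j c =>
    have : (Pi.single j c : _ → F) = c • Pi.single j (1 : F) := by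
      rw [← Pi.single_smul, smul_eq_mul, mul_one]
    rw [this, mulVec_smul]
    rcases j with j | j
    · rw [← hv_al, h.hv]; simp
    · rw [← R.e_rt, h.e']
      by_cases e : r.1 = R.rt j
      · simp [e_inr, e, mul_comm]
      · simp [e_inr, e]

theorem IsN.d_conj {m : GL (Fin l ⊕ Fin n) F} {w χ} (h : IsN R m w χ) (a : GL (Fin l ⊕ Fin n) F)
    (r : R.Φ) : d R (m⁻¹ * a * m) r = d R a (h.act r) := by
  have h1 := h.coord r ((m⁻¹ * a * m).1 *ᵥ R.e F r.1)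
  rw [← d_eq_mulVec, mulVec_mulVec, ← Units.val_mul, show m * (m⁻¹ * a * m) = a * m by group,
    Units.val_mul, ← mulVec_mulVec, h.e', mulVec_smul, Pi.smul_apply, smul_eq_mul] at h1
  rw [d_eq_mulVec a]
  exact (mul_left_cancel₀ (h.ne_zero _) h1).symm

theorem mem_H_of {m : GL (Fin l ⊕ Fin n) F} (hm : m ∈ N R F) (hb : m ∈ Bo R F) : m ∈ H R F := by
  obtain ⟨hG, w, χ, h⟩ := hm
  refine ⟨hG, χ, h.congr (LinearEquiv.toLinearMap_injective ((Pi.basisFun ℤ _).ext fun i => ?_))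
    fun _ => rfl⟩
  have h1 : d R m (R.sp i) ≠ 0 := left_ne_zero_of_mul_eq_one (by
    rw [← d_mul hb ((Bo R F).inv_mem hb), mul_inv_cancel, d_one])
  rw [d_eq_mulVec, h.e'] at h1
  by_contra h2
  apply h1
  simp only [Pi.smul_apply, e_inr, rt_ix, sp_val]
  rw [if_neg (fun e => h2 (by simpa [al] using e.symm)), smul_zero]

theorem mem_U_of {b : GL (Fin l ⊕ Fin n) F} (hb : b ∈ Bo R F) (h1 : ∀ r, d R b r = 1) :
    b ∈ U R F := by
  obtain ⟨u, hu, h, hh, rfl⟩ := hb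
  obtain ⟨-, χ, h2⟩ := id hh
  have : h = 1 := h2.eq_of IsN.one fun s hs => by
    have := h1 ⟨s, hs⟩
    rwa [d_mul (U_le_Bo hu) (H_le_Bo hh), d_U hu, one_mul, h2.d_eq] at this
  rwa [this, mul_one]

theorem exists_act {b b' y : GL (Fin l ⊕ Fin n) F} (hb : b ∈ Bo R F) (hb' : b' ∈ Bo R F)
    (hy : y ∈ G R F) (e : y⁻¹ * b * y = b') :
    ∃ (m : GL (Fin l ⊕ Fin n) F) (w : _) (χ : _) (h : IsN R m w χ), ∀ r, d R b' r = d R b (h.act r) := by
  obtain ⟨u, hu, m, ⟨-, w, χ, h⟩, u', hu', rfl⟩ := bruhat hy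
  refine ⟨m, w, χ, h, fun r => ?_⟩
  rw [← d_conj_Bo hb (U_le_Bo hu), ← h.d_conj, ← d_conj_Bo hb' (U_le_Bo ((U R F).inv_mem hu')), ← e]
  congr 1
  group

end Cfsg.Agent.H9.Ch
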